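import Mathlib
import Cfsg.Prelude.Def_MonsterType
import Cfsg.Agent.Lib.Helper90.ESConverse
import Cfsg.Agent.Lib.Lead.Residual
import Cfsg.Agent.S0026

set_option autoImplicit false

namespace Cfsg.Agent.Lib.Helper90

variable {G : Type*} [Group G]

/-- a group normalising `Q` centralises `z`. -/
theorem ES.comm_of_normalizes {Q : Subgroup G} {z : G} (hES : ES Q z) {a : G}
    (haN : a ∈ Subgroup.normalizer (Q : Set G)) : a * z = z * a := by
  have h1 : a * z * a⁻¹ ∈ Q := (Subgroup.mem_normalizer_iff.mp haN z).mp hES.z_mem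
  have h2 : ∀ q ∈ Q, q * (a * z * a⁻¹) = (a * z * a⁻¹) * q := by
    intro q hq
    have h3 : a⁻¹ * q * a ∈ Q := by
      rw [Subgroup.mem_normalizer_iff.mp haN]
      have e : a * (a⁻¹ * q * a) * a⁻¹ = q := by group
      rw [e]; exact hq
    have h4 := hES.z_comm _ h3
    calc q * (a * z * a⁻¹) = a * ((a⁻¹ * q * a) * z) * a⁻¹ := by group
      _ = a * (z * (a⁻¹ * q * a)) * a⁻¹ := by rw [h4]
      _ = _ := by group
  rcases hES.center _ h1 h2 with h3 | h3
  · exfalso
    apply hES.z_ne
    have := congrArg (fun w => a⁻¹ * w * a) h3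
    simpa [mul_assoc] using this
  · calc a * z = (a * z * a⁻¹) * a := by group
      _ = z * a := by rw [h3]

/-- coprime action on an extraspecial group: `Q = [Q,A] * C_Q(A)`, a central product. -/
theorem ES.coprime_decomp [Finite G] {Q : Subgroup G} {z : G} (hES : ES Q z) (A : Subgroup G)
    (hA : A ≤ Subgroup.normalizer (Q : Set G)) (hAodd : Odd (Nat.card ↥A)) :
    ⁅Q, A⁆ ⊔ (Q ⊓ Subgroup.centralizer (A : Set G)) = Q ∧
      ∀ x ∈ ⁅Q, A⁆, ∀ y ∈ Q ⊓ Subgroup.centralizer (A : Set G), x * y = y * x := by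
  have : Fact (Nat.Prime 2) := ⟨Nat.prime_two⟩
  have hZmem := hES.mem_center_map_iff'
  have hcop : (Nat.card A).Coprime (Nat.card Q) := by
    obtain ⟨n, hn⟩ := IsPGroup.iff_card.mp hES.two
    rw [hn]
    apply Nat.Coprime.pow_right
    exact (Nat.coprime_two_right).mpr hAodd
  have hsolv : Group.IsSolvable A ∨ Group.IsSolvable Q := by
    right
    have := hES.two.isNilpotent
    infer_instance
  have h26 := Cfsg.Agent.S0026.result A Q hA hcop hsolv
  obtain ⟨C, hC⟩ : ∃ C : Subgroup G, C = Q ⊓ Subgroup.centralizer (A : Set G) := ⟨_, rfl⟩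
  rw [← hC] at h26 ⊢
  have hAz : ∀ a ∈ A, a * z = z * a := fun a ha => hES.comm_of_normalizes (hA ha)
  have hZA : ⁅(Subgroup.center ↥Q).map Q.subtype, A⁆ = ⊥ := by
    rw [Subgroup.commutator_eq_bot_iff_le_centralizer]
    intro y hy
    rw [Subgroup.mem_centralizer_iff]
    intro a ha
    rcases (hZmem y).mp hy with rfl | rfl
    · simp
    · exact hAz a ha
  have hCQ : C ≤ Q := by rw [hC]; exact inf_le_left
  have hRC : ⁅⁅Q, A⁆, C⁆ = ⊥ := by
    apply Subgroup.commutator_commutator_eq_bot_of_rotate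
    · have : ⁅A, C⁆ = ⊥ := by
        rw [Subgroup.commutator_comm, Subgroup.commutator_eq_bot_iff_le_centralizer, hC]
        exact inf_le_right
      rw [this]
      exact Subgroup.commutator_bot_left _
    · have h1 : ⁅C, Q⁆ ≤ (Subgroup.center ↥Q).map Q.subtype := by
        rw [Subgroup.commutator_le]
        intro c hc q hq
        rw [hZmem, commutatorElement_def]
        rcases hES.comm c (hCQ hc) q hq with h | h
        · left; rw [h]; group
        · right; rw [h]; group
      rw [eq_bot_iff, ← hZA]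
      exact Subgroup.commutator_mono h1 le_rfl
  refine ⟨h26, ?_⟩
  rw [Subgroup.commutator_eq_bot_iff_le_centralizer] at hRC
  intro x hx y hy
  exact (Subgroup.mem_centralizer_iff.mp (hRC hx) y hy).symm

/-- a non-central element of `C_Q(A)` is moved by an element of `C_Q(A)`. -/
theorem ES.exists_conj_coprime [Finite G] {Q : Subgroup G} {z : G} (hES : ES Q z) (A : Subgroup G)
    (hA : A ≤ Subgroup.normalizer (Q : Set G)) (hAodd : Odd (Nat.card ↥A)) {b : G}
    (hbQ : b ∈ Q) (hbA : ∀ a ∈ A, a * b = b * a) (hb1 : b ≠ 1) (hbz : b ≠ z) :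
    ∃ r ∈ Q, (∀ a ∈ A, a * r = r * a) ∧ r * b * r⁻¹ = z * b := by
  obtain ⟨hsup, hcomm⟩ := hES.coprime_decomp A hA hAodd
  by_contra hcon
  push Not at hcon
  have hbC : b ∈ Q ⊓ Subgroup.centralizer (A : Set G) :=
    Subgroup.mem_inf.mpr ⟨hbQ, Subgroup.mem_centralizer_iff.mpr hbA⟩
  have hle : Q ≤ Subgroup.centralizer ({b} : Set G) := by
    conv_lhs => rw [← hsup]
    apply sup_le
    · intro x hx
      exact Subgroup.mem_centralizer_singleton_iff.mpr (hcomm x hx b hbC)
    · intro r hr
      obtain ⟨hrQ, hrA⟩ := Subgroup.mem_inf.mp hr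
      rw [Subgroup.mem_centralizer_singleton_iff]
      rcases hES.comm r hrQ b hbQ with h | h
      · exact h
      · exfalso
        apply hcon r hrQ (Subgroup.mem_centralizer_iff.mp hrA)
        rw [h]; group
  rcases hES.center b hbQ (fun q hq => Subgroup.mem_centralizer_singleton_iff.mp (hle hq)) with h | h
  · exact hb1 h
  · exact hbz h

/-- an element of a group of odd order killed by a power of two is trivial. -/
theorem eq_one_of_pow_two_pow [Finite G] {A : Subgroup G} (hAodd : Odd (Nat.card ↥A)) {a : G}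
    (ha : a ∈ A) (k : ℕ) (hk : a ^ (2 ^ k) = 1) : a = 1 := by
  have h1 : orderOf a ∣ 2 ^ k := orderOf_dvd_of_pow_eq_one hk
  have h2 : orderOf a ∣ Nat.card A := by
    have := orderOf_dvd_natCard (⟨a, ha⟩ : A)
    rwa [Subgroup.orderOf_mk] at this
  have h3 : Nat.Coprime (2 ^ k) (Nat.card A) :=
    Nat.Coprime.pow_left _ ((Nat.coprime_two_left).mpr hAodd)
  have h4 : orderOf a = 1 := Nat.eq_one_of_dvd_coprimes h3 h1 h2
  exact orderOf_eq_one_iff.mp h4

/-- elements of the join of two elementwise commuting subgroups. -/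
theorem exists_mul_of_mem_sup_of_commute {C A : Subgroup G}
    (hcomm : ∀ c ∈ C, ∀ a ∈ A, a * c = c * a) {x : G} (hx : x ∈ C ⊔ A) :
    ∃ c ∈ C, ∃ a ∈ A, x = c * a := by
  rw [Subgroup.sup_eq_closure] at hx
  induction hx using Subgroup.closure_induction with
  | mem x hx =>
    rcases hx with hx | hx
    · exact ⟨x, hx, 1, A.one_mem, by simp⟩
    · exact ⟨1, C.one_mem, x, hx, by simp⟩
  | one => exact ⟨1, C.one_mem, 1, A.one_mem, by simp⟩
  | mul x y _ _ hx hy =>
    obtain ⟨c, hc, a, ha, rfl⟩ := hx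
    obtain ⟨c', hc', a', ha', rfl⟩ := hy
    refine ⟨c * c', C.mul_mem hc hc', a * a', A.mul_mem ha ha', ?_⟩
    calc c * a * (c' * a') = c * (a * c') * a' := by group
      _ = c * c' * (a * a') := by rw [hcomm c' hc' a ha]; group
  | inv x _ hx =>
    obtain ⟨c, hc, a, ha, rfl⟩ := hx
    refine ⟨c⁻¹, C.inv_mem hc, a⁻¹, A.inv_mem ha, ?_⟩
    calc (c * a)⁻¹ = (a * c)⁻¹ := by rw [hcomm c hc a ha]
      _ = c⁻¹ * a⁻¹ := by group

/-- a group of order `2 * odd` is `O(D)⟨z⟩`. -/
theorem mem_oddCore_or_of_not_four_dvd {D : Type*} [Group D] [Finite D] (z : D)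
    (hz : orderOf z = 2) (h4 : ¬ 4 ∣ Nat.card D) (d : D) :
    d ∈ Cfsg.oddCore D ∨ z * d ∈ Cfsg.oddCore D := by
  have : Fact (Nat.Prime 2) := ⟨Nat.prime_two⟩
  have hzz : z * z = 1 := by
    have := pow_orderOf_eq_one z
    rwa [hz, pow_two] at this
  have hz1 : z ≠ 1 := by
    intro h
    rw [h, orderOf_one] at hz
    omega
  have hzp : IsPGroup 2 (Subgroup.zpowers z) := by
    apply IsPGroup.of_card (n := 1)
    rw [Nat.card_zpowers, hz, pow_one]
  obtain ⟨P, hP⟩ := hzp.exists_le_sylow
  have hPcard : Nat.card P = 2 := by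
    obtain ⟨n, hn⟩ := IsPGroup.iff_card.mp P.2
    have h1 : Nat.card P ∣ Nat.card D := Subgroup.card_subgroup_dvd_card _
    have h2 : 2 ∣ Nat.card P := by
      have := Subgroup.card_dvd_of_le hP
      rwa [Nat.card_zpowers, hz] at this
    rcases n with _ | _ | n
    · rw [hn] at h2; norm_num at h2
    · rw [hn]; norm_num
    · exfalso
      apply h4
      refine dvd_trans ?_ h1
      rw [hn]
      exact ⟨2 ^ n, by ring⟩
  have hPeq : (P : Subgroup D) = Subgroup.zpowers z := by
    symm
    apply Subgroup.eq_of_le_of_card_ge hP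
    rw [hPcard, Nat.card_zpowers, hz]
  have hmemP : ∀ y, y ∈ (P : Subgroup D) ↔ y = 1 ∨ y = z := by
    intro y
    rw [hPeq]
    constructor
    · intro hy
      rw [Subgroup.mem_zpowers_iff] at hy
      obtain ⟨k, rfl⟩ := hy
      rcases Int.even_or_odd' k with ⟨m, rfl | rfl⟩
      · left
        rw [zpow_mul, zpow_two, hzz, one_zpow]
      · right
        rw [zpow_add, zpow_mul, zpow_two, hzz, one_zpow, one_mul, zpow_one]
    · rintro (rfl | rfl)
      · exact Subgroup.one_mem _
      · exact Subgroup.mem_zpowers _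
  have hNC : Subgroup.normalizer ((P : Subgroup D) : Set D) ≤
      Subgroup.centralizer ((P : Subgroup D) : Set D) := by
    intro n hn
    rw [Subgroup.mem_centralizer_iff]
    intro y hy
    rcases (hmemP y).mp hy with rfl | rfl
    · simp
    · have h1 := (Subgroup.mem_normalizer_iff.mp hn y).mp hy
      rcases (hmemP _).mp h1 with h2 | h2
      · exfalso
        apply hz1
        have := congrArg (fun w => n⁻¹ * w * n) h2
        simpa [mul_assoc] using this
      · calc y * n = (n * y * n⁻¹) * n := by rw [h2]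
          _ = n * y := by group
  have hcomp : Cfsg.HasNormalPComplement 2 D :=
    ⟨P, (MonoidHom.transferSylow P hNC).ker, inferInstance,
      MonoidHom.ker_transferSylow_isComplement' P hNC⟩
  have hc := Cfsg.Agent.Lib.Lead.HasNormalPComplement.isComplement'_pPrimeCore hcomp P
  obtain ⟨⟨⟨a, ha⟩, ⟨y, hy⟩⟩, hay, -⟩ := (Subgroup.isComplement_iff_existsUnique.mp hc) d⁻¹
  simp only at hay
  have hN : (Cfsg.oddCore D).Normal := by
    unfold Cfsg.oddCore
    infer_instance
  rcases (hmemP y).mp hy with rfl | rfl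
  · left
    rw [mul_one] at hay
    have : d = a⁻¹ := by rw [hay, inv_inv]
    rw [this]
    exact Subgroup.inv_mem _ ha
  · right
    have : y * d = a⁻¹ := by
      have h1 : d = y⁻¹ * a⁻¹ := by
        calc d = (d⁻¹)⁻¹ := by group
          _ = y⁻¹ * a⁻¹ := by rw [← hay]; group
      rw [h1]; group
    rw [this]
    exact Subgroup.inv_mem _ ha

end Cfsg.Agent.Lib.Helper90
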