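import Mathlib
import Cfsg.Prelude.Def_MonsterType
import Cfsg.Agent.Lib.Helper90.Extraspecial
import Cfsg.Agent.Lib.Helper90.ESConverse

set_option autoImplicit false

namespace Cfsg.Agent.Lib.Helper90

variable {G : Type*} [Group G]

/-- `Q` is an extraspecial `2`-group with centre `⟨z⟩`, or `Q = ⟨z⟩` of order two. -/
structure PES (Q : Subgroup G) (z : G) : Prop where
  two : IsPGroup 2 Q
  z_ne : z ≠ 1
  z_mem : z ∈ Q
  z_sq : z * z = 1
  z_comm : ∀ q ∈ Q, q * z = z * q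
  center : ∀ y ∈ Q, (∀ q ∈ Q, q * y = y * q) → y = 1 ∨ y = z
  comm : ∀ x ∈ Q, ∀ y ∈ Q, x * y = y * x ∨ x * y = z * (y * x)
  sq : ∀ x ∈ Q, x * x = 1 ∨ x * x = z

theorem ES.toPES {Q : Subgroup G} {z : G} (h : ES Q z) : PES Q z :=
  ⟨h.two, h.z_ne, h.z_mem, h.z_sq, h.z_comm, h.center, h.comm, h.sq⟩

namespace PES

variable {Q : Subgroup G} {z : G}

theorem toES (h : PES Q z) (hn : ∃ x ∈ Q, ∃ y ∈ Q, x * y ≠ y * x) : ES Q z :=
  ⟨h.two, h.z_ne, h.z_mem, h.z_sq, h.z_comm, h.center, h.comm, h.sq, hn⟩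

theorem z_inv (h : PES Q z) : z⁻¹ = z := inv_eq_of_mul_eq_one_right h.z_sq

theorem mem_iff_of_abelian (h : PES Q z) (hab : ∀ x ∈ Q, ∀ y ∈ Q, x * y = y * x) (q : G) :
    q ∈ Q ↔ q = 1 ∨ q = z := by
  constructor
  · intro hq
    exact h.center q hq (fun p hp => hab p hp q hq)
  · rintro (rfl | rfl)
    · exact Q.one_mem
    · exact h.z_mem

theorem es_or (h : PES Q z) : ES Q z ∨ ∀ q, q ∈ Q ↔ q = 1 ∨ q = z := by
  by_cases hn : ∃ x ∈ Q, ∃ y ∈ Q, x * y ≠ y * x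
  · exact Or.inl (h.toES hn)
  · right
    push Not at hn
    exact h.mem_iff_of_abelian hn

end PES

/-- counting through a subgroup of index two: `K = H ∪ tH`. -/
theorem ncard_half [Finite G] (K H : Subgroup G) (t : G) (htH : t ∉ H)
    (hcov : ∀ k ∈ K, k ∈ H ∨ t⁻¹ * k ∈ H) (S : Set G) (hS : S ⊆ K) :
    S.ncard = {h | h ∈ H ∧ h ∈ S}.ncard + {h | h ∈ H ∧ t * h ∈ S}.ncard := by
  have h1 : S = {h | h ∈ H ∧ h ∈ S} ∪ (fun g => t * g) '' {h | h ∈ H ∧ t * h ∈ S} := by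
    ext s
    constructor
    · intro hs
      rcases hcov s (hS hs) with h | h
      · left; exact ⟨h, hs⟩
      · right
        refine ⟨t⁻¹ * s, ⟨h, ?_⟩, ?_⟩
        · rw [mul_inv_cancel_left]; exact hs
        · simp
    · rintro (⟨-, hs⟩ | ⟨g, ⟨-, hg⟩, rfl⟩)
      · exact hs
      · exact hg
  have hdisj : Disjoint {h | h ∈ H ∧ h ∈ S} ((fun g => t * g) '' {h | h ∈ H ∧ t * h ∈ S}) := by
    rw [Set.disjoint_left]
    rintro s ⟨hsH, -⟩ ⟨g, ⟨hgH, -⟩, rfl⟩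
    apply htH
    have : t = (t * g) * g⁻¹ := by group
    rw [this]
    exact H.mul_mem hsH (H.inv_mem hgH)
  conv_lhs => rw [h1]
  rw [Set.ncard_union_eq hdisj (Set.toFinite _) (Set.toFinite _),
    Set.ncard_image_of_injective _ (mul_right_injective t)]

/-- the centraliser in `Q` of a pair of elements. -/
def cent2 (Q : Subgroup G) (x y : G) : Subgroup G :=
  Q ⊓ Subgroup.centralizer ({x} : Set G) ⊓ Subgroup.centralizer ({y} : Set G)

theorem mem_cent2 {Q : Subgroup G} {x y q : G} :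
    q ∈ cent2 Q x y ↔ q ∈ Q ∧ q * x = x * q ∧ q * y = y * q := by
  unfold cent2
  rw [Subgroup.mem_inf, Subgroup.mem_inf, Subgroup.mem_centralizer_singleton_iff,
    Subgroup.mem_centralizer_singleton_iff, and_assoc]

namespace PES

variable {Q : Subgroup G} {z x y : G}

theorem anti (h : PES Q z) (hx : x ∈ Q) (hy : y ∈ Q) (hxy : x * y ≠ y * x) :
    x * y = z * (y * x) := (h.comm x hx y hy).resolve_left hxy

/-- first covering: `Q = C_Q(y) ∪ x C_Q(y)`. -/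
theorem cover1 (h : PES Q z) (hx : x ∈ Q) (hy : y ∈ Q) (hxy : x * y ≠ y * x) :
    ∀ q ∈ Q, q ∈ Q ⊓ Subgroup.centralizer ({y} : Set G) ∨
      x⁻¹ * q ∈ Q ⊓ Subgroup.centralizer ({y} : Set G) := by
  intro q hq
  have hxy' := h.anti hx hy hxy
  rcases h.comm q hq y hy with h1 | h1
  · left
    exact Subgroup.mem_inf.mpr ⟨hq, Subgroup.mem_centralizer_singleton_iff.mpr h1⟩
  · right
    refine Subgroup.mem_inf.mpr ⟨Q.mul_mem (Q.inv_mem hx) hq, ?_⟩
    rw [Subgroup.mem_centralizer_singleton_iff]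
    have hzx : x⁻¹ * z = z * x⁻¹ := h.z_comm _ (Q.inv_mem hx)
    have h2 : x⁻¹ * (z * y) = y * x⁻¹ := by
      calc x⁻¹ * (z * y) = x⁻¹ * (z * (y * x)) * x⁻¹ := by group
        _ = x⁻¹ * (x * y) * x⁻¹ := by rw [hxy']
        _ = y * x⁻¹ := by group
    calc x⁻¹ * q * y = x⁻¹ * (q * y) := by group
      _ = x⁻¹ * (z * y) * q := by rw [h1]; group
      _ = y * (x⁻¹ * q) := by rw [h2]; group

/-- second covering: `C_Q(y) = C ∪ y C`. -/
theorem cover2 (h : PES Q z) (hx : x ∈ Q) (hy : y ∈ Q) (hxy : x * y ≠ y * x) :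
    ∀ q ∈ Q ⊓ Subgroup.centralizer ({y} : Set G), q ∈ cent2 Q x y ∨ y⁻¹ * q ∈ cent2 Q x y := by
  intro q hq
  obtain ⟨hqQ, hqy⟩ := Subgroup.mem_inf.mp hq
  rw [Subgroup.mem_centralizer_singleton_iff] at hqy
  have hxy' := h.anti hx hy hxy
  rcases h.comm q hqQ x hx with h1 | h1
  · left
    exact mem_cent2.mpr ⟨hqQ, h1, hqy⟩
  · right
    refine mem_cent2.mpr ⟨Q.mul_mem (Q.inv_mem hy) hqQ, ?_, ?_⟩
    · have h2 : y⁻¹ * (z * x) = x * y⁻¹ := by
        have hzy : z * y = y * z := (h.z_comm y hy).symm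
        have h3 : z * x * y = y * x := by
          calc z * x * y = z * (x * y) := by group
            _ = (z * z) * (y * x) := by rw [hxy']; group
            _ = y * x := by rw [h.z_sq, one_mul]
        calc y⁻¹ * (z * x) = y⁻¹ * (z * x * y) * y⁻¹ := by group
          _ = x * y⁻¹ := by rw [h3]; group
      calc y⁻¹ * q * x = y⁻¹ * (q * x) := by group
        _ = y⁻¹ * (z * x) * q := by rw [h1]; group
        _ = x * (y⁻¹ * q) := by rw [h2]; group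
    · calc y⁻¹ * q * y = y⁻¹ * (q * y) := by group
        _ = y * (y⁻¹ * q) := by rw [hqy]; group

theorem x_not_mem (hxy : x * y ≠ y * x) : x ∉ Q ⊓ Subgroup.centralizer ({y} : Set G) := by
  intro hx
  exact hxy (Subgroup.mem_centralizer_singleton_iff.mp (Subgroup.mem_inf.mp hx).2)

theorem y_not_mem (hxy : x * y ≠ y * x) : y ∉ cent2 Q x y := by
  intro hy
  exact hxy (mem_cent2.mp hy).2.1.symm

/-- the four-piece counting formula. -/
theorem ncard_split [Finite G] (h : PES Q z) (hx : x ∈ Q) (hy : y ∈ Q) (hxy : x * y ≠ y * x)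
    (S : Set G) (hS : S ⊆ Q) :
    S.ncard = {c | c ∈ cent2 Q x y ∧ c ∈ S}.ncard + {c | c ∈ cent2 Q x y ∧ y * c ∈ S}.ncard +
      ({c | c ∈ cent2 Q x y ∧ x * c ∈ S}.ncard + {c | c ∈ cent2 Q x y ∧ x * (y * c) ∈ S}.ncard) := by
  rw [ncard_half Q _ x (x_not_mem hxy) (h.cover1 hx hy hxy) S hS]
  have e1 := ncard_half (Q ⊓ Subgroup.centralizer ({y} : Set G)) _ y (y_not_mem (Q := Q) hxy)
    (h.cover2 hx hy hxy) {h | h ∈ Q ⊓ Subgroup.centralizer ({y} : Set G) ∧ h ∈ S}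
    (fun s hs => hs.1)
  have e2 := ncard_half (Q ⊓ Subgroup.centralizer ({y} : Set G)) _ y (y_not_mem (Q := Q) hxy)
    (h.cover2 hx hy hxy) {h | h ∈ Q ⊓ Subgroup.centralizer ({y} : Set G) ∧ x * h ∈ S}
    (fun s hs => hs.1)
  have hle : ∀ c, c ∈ cent2 Q x y → c ∈ Q ⊓ Subgroup.centralizer ({y} : Set G) := by
    intro c hc
    obtain ⟨h1, -, h3⟩ := mem_cent2.mp hc
    exact Subgroup.mem_inf.mpr ⟨h1, Subgroup.mem_centralizer_singleton_iff.mpr h3⟩
  have hle' : ∀ c, c ∈ cent2 Q x y → y * c ∈ Q ⊓ Subgroup.centralizer ({y} : Set G) := by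
    intro c hc
    refine Subgroup.mul_mem _ (Subgroup.mem_inf.mpr ⟨hy, ?_⟩) (hle c hc)
    exact Subgroup.mem_centralizer_singleton_iff.mpr rfl
  rw [e1, e2]
  congr 2
  · congr 1; ext c
    exact ⟨fun hc => ⟨hc.1, hc.2.2⟩, fun hc => ⟨hc.1, hle c hc.1, hc.2⟩⟩
  · congr 1; ext c
    exact ⟨fun hc => ⟨hc.1, hc.2.2⟩, fun hc => ⟨hc.1, hle' c hc.1, hc.2⟩⟩
  · congr 1; ext c
    exact ⟨fun hc => ⟨hc.1, hc.2.2⟩, fun hc => ⟨hc.1, hle c hc.1, hc.2⟩⟩
  · congr 1; ext c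
    exact ⟨fun hc => ⟨hc.1, hc.2.2⟩, fun hc => ⟨hc.1, hle' c hc.1, hc.2⟩⟩

/-- normal form. -/
theorem cover (h : PES Q z) (hx : x ∈ Q) (hy : y ∈ Q) (hxy : x * y ≠ y * x) :
    ∀ q ∈ Q, ∃ c ∈ cent2 Q x y, q = c ∨ q = y * c ∨ q = x * c ∨ q = x * (y * c) := by
  intro q hq
  rcases h.cover1 hx hy hxy q hq with h1 | h1
  · rcases h.cover2 hx hy hxy q h1 with h2 | h2
    · exact ⟨q, h2, Or.inl rfl⟩
    · exact ⟨_, h2, Or.inr (Or.inl (by group))⟩
  · rcases h.cover2 hx hy hxy _ h1 with h2 | h2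
    · exact ⟨_, h2, Or.inr (Or.inr (Or.inl (by group)))⟩
    · exact ⟨_, h2, Or.inr (Or.inr (Or.inr (by group)))⟩

/-- the centraliser of a non-commuting pair is again of the same kind. -/
theorem cent2_pes (h : PES Q z) (hx : x ∈ Q) (hy : y ∈ Q) (hxy : x * y ≠ y * x) :
    PES (cent2 Q x y) z := by
  have hle : cent2 Q x y ≤ Q := fun c hc => (mem_cent2.mp hc).1
  refine ⟨h.two.to_le hle, h.z_ne, mem_cent2.mpr ⟨h.z_mem, (h.z_comm x hx).symm,
    (h.z_comm y hy).symm⟩, h.z_sq, fun q hq => h.z_comm q (hle hq), ?_,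
    fun a ha b hb => h.comm a (hle ha) b (hle hb), fun a ha => h.sq a (hle ha)⟩
  intro w hw hwc
  obtain ⟨hwQ, hwx, hwy⟩ := mem_cent2.mp hw
  apply h.center w hwQ
  intro q hq
  obtain ⟨c, hc, h1 | h1 | h1 | h1⟩ := h.cover hx hy hxy q hq
  · rw [h1]; exact hwc c hc
  · rw [h1]
    calc y * c * w = y * (c * w) := by group
      _ = (y * w) * c := by rw [hwc c hc]; group
      _ = w * (y * c) := by rw [← hwy]; group
  · rw [h1]
    calc x * c * w = x * (c * w) := by group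
      _ = (x * w) * c := by rw [hwc c hc]; group
      _ = w * (x * c) := by rw [← hwx]; group
  · rw [h1]
    calc x * (y * c) * w = x * y * (c * w) := by group
      _ = x * (y * w) * c := by rw [hwc c hc]; group
      _ = (x * w) * y * c := by rw [← hwy]; group
      _ = w * (x * (y * c)) := by rw [← hwx]; group

theorem card_eq_four_mul [Finite G] (h : PES Q z) (hx : x ∈ Q) (hy : y ∈ Q)
    (hxy : x * y ≠ y * x) : Nat.card Q = 4 * Nat.card (cent2 Q x y) := by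
  have h1 := h.ncard_split hx hy hxy (Q : Set G) (fun _ hs => hs)
  have hle : cent2 Q x y ≤ Q := fun c hc => (mem_cent2.mp hc).1
  have e0 : ∀ a ∈ Q, {c | c ∈ cent2 Q x y ∧ a * c ∈ (Q : Set G)} = (cent2 Q x y : Set G) := by
    intro a ha
    ext c
    exact ⟨fun hc => hc.1, fun hc => ⟨hc, Q.mul_mem ha (hle hc)⟩⟩
  have e1 : {c | c ∈ cent2 Q x y ∧ c ∈ (Q : Set G)} = (cent2 Q x y : Set G) := by
    ext c
    exact ⟨fun hc => hc.1, fun hc => ⟨hc, hle hc⟩⟩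
  have e2 : {c | c ∈ cent2 Q x y ∧ x * (y * c) ∈ (Q : Set G)} = (cent2 Q x y : Set G) := by
    ext c
    exact ⟨fun hc => hc.1, fun hc => ⟨hc, Q.mul_mem hx (Q.mul_mem hy (hle hc))⟩⟩
  rw [e1, e0 y hy, e0 x hx, e2] at h1
  have e3 : ∀ K : Subgroup G, (K : Set G).ncard = Nat.card K := fun K => rfl
  rw [e3, e3] at h1
  omega

end PES

end Cfsg.Agent.Lib.Helper90
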