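import Mathlib
import Cfsg.Prelude.Def_MonsterType
import Cfsg.Agent.Lib.Helper90.Swap
import Cfsg.Agent.Lib.Helper90.FourGroup

set_option autoImplicit false

namespace Cfsg.Agent.Lib.Helper90

variable {G : Type*} [Group G]

/-- In a finite group, an element conjugating `H` into `H` normalises `H`. -/
theorem mem_normalizer_of_conj_mem [Finite G] (H : Subgroup G) (y : G)
    (h : ∀ v ∈ H, y * v * y⁻¹ ∈ H) : y ∈ Subgroup.normalizer (H : Set G) := by
  have hle : H.map (MulAut.conj y).toMonoidHom ≤ H := by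
    rintro _ ⟨v, hv, rfl⟩
    simpa using h v hv
  have hcard : Nat.card (H.map (MulAut.conj y).toMonoidHom) = Nat.card H :=
    Subgroup.card_map_of_injective (MulAut.conj y).injective
  have heq : H.map (MulAut.conj y).toMonoidHom = H :=
    Subgroup.eq_of_le_of_card_ge hle hcard.ge
  rw [Subgroup.mem_normalizer_iff]
  intro v
  constructor
  · intro hv
    exact h v hv
  · intro hv
    rw [← heq] at hv
    obtain ⟨u, hu, hu'⟩ := hv
    simp only [MulEquiv.coe_toMonoidHom, MulAut.conj_apply] at hu'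
    have : u = v := by
      have := congrArg (fun w => y⁻¹ * w * y) hu'
      simpa [mul_assoc] using this
    rw [← this]; exact hu

/-- The elements of `N_G(E)` commuting with `x` modulo `E`. -/
def commMod (E : Subgroup G) (x : G) : Subgroup G where
  carrier := {y | y ∈ Subgroup.normalizer (E : Set G) ∧ y * x * y⁻¹ * x⁻¹ ∈ E}
  one_mem' := ⟨Subgroup.one_mem _, by simp⟩
  mul_mem' := by
    rintro a b ⟨ha, ha'⟩ ⟨hb, hb'⟩
    refine ⟨Subgroup.mul_mem _ ha hb, ?_⟩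
    have h1 : a * (b * x * b⁻¹ * x⁻¹) * a⁻¹ ∈ E := (Subgroup.mem_normalizer_iff.mp ha _).mp hb'
    have := E.mul_mem h1 ha'
    have e : a * (b * x * b⁻¹ * x⁻¹) * a⁻¹ * (a * x * a⁻¹ * x⁻¹) = a * b * x * (a * b)⁻¹ * x⁻¹ := by
      group
    rwa [e] at this
  inv_mem' := by
    rintro a ⟨ha, ha'⟩
    refine ⟨Subgroup.inv_mem _ ha, ?_⟩
    have h1 : a⁻¹ * (a * x * a⁻¹ * x⁻¹)⁻¹ * a⁻¹⁻¹ ∈ E :=
      (Subgroup.mem_normalizer_iff.mp (Subgroup.inv_mem _ ha) _).mp (E.inv_mem ha')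
    have e : a⁻¹ * (a * x * a⁻¹ * x⁻¹)⁻¹ * a⁻¹⁻¹ = a⁻¹ * x * a⁻¹⁻¹ * x⁻¹ := by group
    rwa [e] at h1

theorem mem_commMod (E : Subgroup G) (x y : G) :
    y ∈ commMod E x ↔ y ∈ Subgroup.normalizer (E : Set G) ∧ y * x * y⁻¹ * x⁻¹ ∈ E := Iff.rfl

/-- commutators of `A ⊔ B` with `x` lie in `E` as soon as those of `A` and `B` do. -/
theorem comm_mem_of_sup (E A B : Subgroup G) (x : G)
    (hA : A ≤ Subgroup.normalizer (E : Set G)) (hB : B ≤ Subgroup.normalizer (E : Set G))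
    (hAx : ∀ a ∈ A, a * x * a⁻¹ * x⁻¹ ∈ E) (hBx : ∀ b ∈ B, b * x * b⁻¹ * x⁻¹ ∈ E) :
    ∀ y ∈ A ⊔ B, y * x * y⁻¹ * x⁻¹ ∈ E := by
  have hle : A ⊔ B ≤ commMod E x :=
    sup_le (fun a ha => ⟨hA ha, hAx a ha⟩) (fun b hb => ⟨hB hb, hBx b hb⟩)
  intro y hy
  exact (hle hy).2

/-- swapping the two arguments of a commutator. -/
theorem comm_swap_mem (E : Subgroup G) {x y : G} (h : y * x * y⁻¹ * x⁻¹ ∈ E) :
    x * y * x⁻¹ * y⁻¹ ∈ E := by
  have := E.inv_mem h
  have e : (y * x * y⁻¹ * x⁻¹)⁻¹ = x * y * x⁻¹ * y⁻¹ := by group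
  rwa [e] at this

/-- transport of the ambient extraspecial structure by conjugation. -/
theorem ES.conj {Q : Subgroup G} {z : G} (h : ES Q z) (g : G) :
    ES (Q.map (MulAut.conj g).toMonoidHom) (g * z * g⁻¹) := by
  have mem : ∀ c, c ∈ Q.map (MulAut.conj g).toMonoidHom ↔ g⁻¹ * c * g ∈ Q := fun c =>
    mem_map_conj_iff Q g c
  have back : ∀ a b : G, g⁻¹ * a * g = g⁻¹ * b * g → a = b := by
    intro a b hab
    have := congrArg (fun w => g * w * g⁻¹) hab
    simpa [mul_assoc] using this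
  refine ⟨h.two.map _, ?_, ?_, ?_, ?_, ?_, ?_, ?_, ?_⟩
  · intro h1
    apply h.z_ne
    have := congrArg (fun w => g⁻¹ * w * g) h1
    simpa [mul_assoc] using this
  · rw [mem]
    have e : g⁻¹ * (g * z * g⁻¹) * g = z := by group
    rw [e]; exact h.z_mem
  · calc g * z * g⁻¹ * (g * z * g⁻¹) = g * (z * z) * g⁻¹ := by group
      _ = 1 := by rw [h.z_sq]; group
  · intro q hq
    have h1 := h.z_comm _ ((mem q).mp hq)
    calc q * (g * z * g⁻¹) = g * ((g⁻¹ * q * g) * z) * g⁻¹ := by group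
      _ = g * (z * (g⁻¹ * q * g)) * g⁻¹ := by rw [h1]
      _ = g * z * g⁻¹ * q := by group
  · intro y hy hc
    have h1 : ∀ q ∈ Q, q * (g⁻¹ * y * g) = (g⁻¹ * y * g) * q := by
      intro q hq
      have h2 : g * q * g⁻¹ ∈ Q.map (MulAut.conj g).toMonoidHom := by
        rw [mem]
        have e : g⁻¹ * (g * q * g⁻¹) * g = q := by group
        rw [e]; exact hq
      have h3 := hc _ h2
      calc q * (g⁻¹ * y * g) = g⁻¹ * ((g * q * g⁻¹) * y) * g := by group
        _ = g⁻¹ * (y * (g * q * g⁻¹)) * g := by rw [h3]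
        _ = _ := by group
    rcases h.center _ ((mem y).mp hy) h1 with h2 | h2
    · left
      apply back
      rw [h2]; group
    · right
      apply back
      rw [h2]; group
  · intro x hx y hy
    rcases h.comm _ ((mem x).mp hx) _ ((mem y).mp hy) with h1 | h1
    · left
      apply back
      calc g⁻¹ * (x * y) * g = (g⁻¹ * x * g) * (g⁻¹ * y * g) := by group
        _ = (g⁻¹ * y * g) * (g⁻¹ * x * g) := h1
        _ = _ := by group
    · right
      apply back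
      calc g⁻¹ * (x * y) * g = (g⁻¹ * x * g) * (g⁻¹ * y * g) := by group
        _ = z * ((g⁻¹ * y * g) * (g⁻¹ * x * g)) := h1
        _ = _ := by group
  · intro x hx
    rcases h.sq _ ((mem x).mp hx) with h1 | h1
    · left
      apply back
      calc g⁻¹ * (x * x) * g = (g⁻¹ * x * g) * (g⁻¹ * x * g) := by group
        _ = 1 := h1
        _ = _ := by group
    · right
      apply back
      calc g⁻¹ * (x * x) * g = (g⁻¹ * x * g) * (g⁻¹ * x * g) := by group
        _ = z := h1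
        _ = _ := by group
  · obtain ⟨x, hx, y, hy, hxy⟩ := h.nonab
    refine ⟨g * x * g⁻¹, ?_, g * y * g⁻¹, ?_, ?_⟩
    · rw [mem]
      have e : g⁻¹ * (g * x * g⁻¹) * g = x := by group
      rw [e]; exact hx
    · rw [mem]
      have e : g⁻¹ * (g * y * g⁻¹) * g = y := by group
      rw [e]; exact hy
    · intro h1
      apply hxy
      have := congrArg (fun w => g⁻¹ * w * g) h1
      simpa [mul_assoc] using this

/-- The symmetric configuration of two conjugate extraspecial subgroups `Q = Q(z)`, `Q' = Q(s)` with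
`s ∈ Q` and `z ∈ Q'`. -/
structure PairData (Q Q' : Subgroup G) (z s : G) : Prop where
  es : ES Q z
  es' : ES Q' s
  s_mem : s ∈ Q
  z_mem : z ∈ Q'
  ne : z ≠ s
  norm : ∀ c, c * z = z * c → ∀ q ∈ Q, c * q * c⁻¹ ∈ Q
  norm' : ∀ c, c * s = s * c → ∀ q ∈ Q', c * q * c⁻¹ ∈ Q'

namespace PairData

variable {Q Q' : Subgroup G} {z s : G}

theorem symm (h : PairData Q Q' z s) : PairData Q' Q s z :=
  ⟨h.es', h.es, h.z_mem, h.s_mem, h.ne.symm, h.norm', h.norm⟩

theorem zs_comm (h : PairData Q Q' z s) : z * s = s * z := (h.es.z_comm s h.s_mem).symm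

/-- construction from the hypotheses of the `large extraspecial pair` statements. -/
theorem of_large [Finite G] {Q : Subgroup G} {z : G} (hES : ES Q z)
    (hL2 : Subgroup.centralizer (Q : Set G) = ((Subgroup.center ↥Q).map Q.subtype))
    (hL3 : Subgroup.centralizer (((Subgroup.center ↥Q).map Q.subtype) : Set G) ≤
      Subgroup.normalizer (Q : Set G))
    (g : G) (hsQ : g * z * g⁻¹ ∈ Q) (hsz : g * z * g⁻¹ ≠ z) :
    PairData Q (Q.map (MulAut.conj g).toMonoidHom) z (g * z * g⁻¹) := by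
  obtain ⟨s, hs_def⟩ : ∃ s, s = g * z * g⁻¹ := ⟨_, rfl⟩
  rw [← hs_def] at hsQ hsz ⊢
  have hs1 : s ≠ 1 := by
    intro h1
    apply hES.z_ne
    rw [hs_def] at h1
    have := congrArg (fun w => g⁻¹ * w * g) h1
    simpa [mul_assoc] using this
  have hss : s * s = 1 := by
    rw [hs_def]
    calc g * z * g⁻¹ * (g * z * g⁻¹) = g * (z * z) * g⁻¹ := by group
      _ = 1 := by rw [hES.z_sq]; group
  obtain ⟨q0, hq0, hq0s⟩ := hES.exists_conj hsQ hs1 hsz
  have hq0z : q0 * z * q0⁻¹ = z := by rw [hES.z_comm q0 hq0]; group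
  obtain ⟨x, hxs, hxz⟩ := hES.exists_transvection hL2 hL3 hs_def hsQ hsz
  have hxinv_z : x⁻¹ * z * x = z * s := by
    have h1 : x * (z * s) * x⁻¹ = z := by
      calc x * (z * s) * x⁻¹ = (x * z * x⁻¹) * (x * s * x⁻¹) := by group
        _ = z * (s * s) := by rw [hxz, hxs]; group
        _ = z := by rw [hss, mul_one]
    calc x⁻¹ * z * x = x⁻¹ * (x * (z * s) * x⁻¹) * x := by rw [h1]
      _ = z * s := by group
  have hxinv_s : x⁻¹ * s * x = s := by
    calc x⁻¹ * s * x = x⁻¹ * (x * s * x⁻¹) * x := by rw [hxs]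
      _ = s := by group
  obtain ⟨n, hn_def⟩ : ∃ n, n = x * q0 * x⁻¹ := ⟨_, rfl⟩
  have hnz : n * z * n⁻¹ = s := by
    rw [hn_def]
    calc x * q0 * x⁻¹ * z * (x * q0 * x⁻¹)⁻¹ = x * (q0 * (x⁻¹ * z * x) * q0⁻¹) * x⁻¹ := by group
      _ = x * ((q0 * z * q0⁻¹) * (q0 * s * q0⁻¹)) * x⁻¹ := by rw [hxinv_z]; group
      _ = x * ((z * z) * s) * x⁻¹ := by rw [hq0z, hq0s]; group
      _ = s := by rw [hES.z_sq, one_mul, hxs]
  have hns : n * s * n⁻¹ = z := by
    rw [hn_def]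
    calc x * q0 * x⁻¹ * s * (x * q0 * x⁻¹)⁻¹ = x * (q0 * (x⁻¹ * s * x) * q0⁻¹) * x⁻¹ := by group
      _ = (x * z * x⁻¹) * (x * s * x⁻¹) := by rw [hxinv_s, hq0s]; group
      _ = z * (s * s) := by rw [hxz, hxs]; group
      _ = z := by rw [hss, mul_one]
  have hnorm : ∀ c, c * z = z * c → ∀ q ∈ Q, c * q * c⁻¹ ∈ Q := by
    intro c hc q hq
    exact (Subgroup.mem_normalizer_iff.mp (hL3 ((hES.mem_centralizer_center_iff c).mpr hc)) q).mp hq
  have hzQg : z ∈ Q.map (MulAut.conj g).toMonoidHom := by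
    rw [mem_map_conj_iff]
    have h1 : (g⁻¹ * n) * z = z * (g⁻¹ * n) := by
      calc g⁻¹ * n * z = g⁻¹ * (n * z * n⁻¹) * n := by group
        _ = g⁻¹ * (g * z * g⁻¹) * n := by rw [hnz, hs_def]
        _ = z * (g⁻¹ * n) := by group
    have h3 := hnorm _ h1 s hsQ
    have e : g⁻¹ * n * s * (g⁻¹ * n)⁻¹ = g⁻¹ * (n * s * n⁻¹) * g := by group
    rw [e, hns] at h3
    exact h3
  refine ⟨hES, hs_def ▸ hES.conj g, hsQ, hzQg, hsz.symm, hnorm, ?_⟩
  intro c hc r hr
  rw [mem_map_conj_iff] at hr ⊢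
  have h1 : (g⁻¹ * c * g) * z = z * (g⁻¹ * c * g) := by
    rw [hs_def] at hc
    calc g⁻¹ * c * g * z = g⁻¹ * (c * (g * z * g⁻¹)) * g := by group
      _ = g⁻¹ * ((g * z * g⁻¹) * c) * g := by rw [hc]
      _ = z * (g⁻¹ * c * g) := by group
  have h3 := hnorm _ h1 _ hr
  have e : g⁻¹ * c * g * (g⁻¹ * r * g) * (g⁻¹ * c * g)⁻¹ = g⁻¹ * (c * r * c⁻¹) * g := by group
  rw [e] at h3
  exact h3

end PairData

end Cfsg.Agent.Lib.Helper90
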