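import Mathlib
import Cfsg.Prelude.Def_MonsterType
import Cfsg.Agent.Lib.Helper90.PairData
import Cfsg.Agent.Lib.Helper90.ESConverse
import Cfsg.Agent.Lib.Helper90.Large

set_option autoImplicit false

namespace Cfsg.Agent.Lib.Helper90

variable {G : Type*} [Group G]

/-- the cyclic group generated by an element of square one. -/
theorem mem_zpowers_iff_of_sq {t : G} (htt : t * t = 1) (y : G) :
    y ∈ Subgroup.zpowers t ↔ y = 1 ∨ y = t := by
  constructor
  · intro hy
    rw [Subgroup.mem_zpowers_iff] at hy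
    obtain ⟨k, rfl⟩ := hy
    rcases Int.even_or_odd' k with ⟨m, rfl | rfl⟩
    · left
      rw [zpow_mul, zpow_two, htt, one_zpow]
    · right
      rw [zpow_add, zpow_mul, zpow_two, htt, one_zpow, one_mul, zpow_one]
  · rintro (rfl | rfl)
    · exact Subgroup.one_mem _
    · exact Subgroup.mem_zpowers _

/-- elementwise criterion for `C_G(Q) = Z(Q)`. -/
theorem ES.hL2_of {Q : Subgroup G} {z : G} (h : ES Q z)
    (H : ∀ x, (∀ q ∈ Q, q * x = x * q) → x = 1 ∨ x = z) :
    Subgroup.centralizer (Q : Set G) = ((Subgroup.center ↥Q).map Q.subtype) := by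
  ext x
  rw [h.mem_center_map_iff', Subgroup.mem_centralizer_iff]
  constructor
  · intro hx
    exact H x hx
  · rintro (rfl | rfl)
    · intro q _; simp
    · intro q hq; exact h.z_comm q hq

/-- elementwise criterion for `C_G(Z(Q)) ≤ N_G(Q)`. -/
theorem ES.hL3_of {Q : Subgroup G} {z : G} (h : ES Q z)
    (H : ∀ x, x * z = z * x → ∀ q ∈ Q, x * q * x⁻¹ ∈ Q) :
    Subgroup.centralizer (((Subgroup.center ↥Q).map Q.subtype) : Set G) ≤
      Subgroup.normalizer (Q : Set G) := by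
  intro x hx
  rw [h.mem_centralizer_center_iff] at hx
  rw [Subgroup.mem_normalizer_iff]
  intro q
  constructor
  · exact H x hx q
  · intro hq
    have hx' : x⁻¹ * z = z * x⁻¹ := by
      calc x⁻¹ * z = x⁻¹ * (z * x) * x⁻¹ := by group
        _ = x⁻¹ * (x * z) * x⁻¹ := by rw [hx]
        _ = z * x⁻¹ := by group
    have := H x⁻¹ hx' _ hq
    have e : x⁻¹ * (x * q * x⁻¹) * x⁻¹⁻¹ = q := by group
    rwa [e] at this

/-- the `conjugate of the centre inside Q` criterion for largeness (no width hypothesis). -/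
theorem ES.large_of_conj [Finite G] {Q : Subgroup G} {z : G} (hES : ES Q z)
    (hL2 : Subgroup.centralizer (Q : Set G) = ((Subgroup.center ↥Q).map Q.subtype))
    (hL3 : Subgroup.centralizer (((Subgroup.center ↥Q).map Q.subtype) : Set G) ≤
      Subgroup.normalizer (Q : Set G))
    (g : G) (hsQ : g * z * g⁻¹ ∈ Q) (hsz : g * z * g⁻¹ ≠ z) :
    Cfsg.IsLargeExtraspecial Q := by
  have hPD := PairData.of_large hES hL2 hL3 g hsQ hsz
  refine ⟨hES.isExtraspecial, hL2, hL3, ?_⟩
  intro K hK hQK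
  exact large_of_involution Q z hES hL2 hL3 (g * z * g⁻¹) hsQ hPD.es'.z_ne hsz hPD.es'.z_sq
    (Q.map (MulAut.conj g).toMonoidHom) hPD.es'.two hPD.z_mem hPD.norm' K hK hQK

/-- combined elementwise criterion. -/
theorem ES.large_of_elementwise [Finite G] {Q : Subgroup G} {z : G} (hES : ES Q z)
    (H2 : ∀ x, (∀ q ∈ Q, q * x = x * q) → x = 1 ∨ x = z)
    (H3 : ∀ x, x * z = z * x → ∀ q ∈ Q, x * q * x⁻¹ ∈ Q)
    (g : G) (hsQ : g * z * g⁻¹ ∈ Q) (hsz : g * z * g⁻¹ ≠ z) :
    Cfsg.IsLargeExtraspecial Q :=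
  hES.large_of_conj (hES.hL2_of H2) (hES.hL3_of H3) g hsQ hsz

/-- largeness criterion in a quotient `T ⧸ N`. -/
theorem large_quotient {T : Type*} [Group T] [Finite T] (N : Subgroup T) [hN : N.Normal]
    (P : Subgroup T) (z : T)
    (two : IsPGroup 2 P) (hzP : z ∈ P) (hzN : z ∉ N) (hzz : z * z = 1)
    (hzc : ∀ p ∈ P, p * z = z * p)
    (hcomm : ∀ x ∈ P, ∀ y ∈ P, x * y = y * x ∨ x * y = z * (y * x))
    (hsq : ∀ x ∈ P, x * x = 1 ∨ x * x = z)
    (H2 : ∀ x, (∀ p ∈ P, p * x * p⁻¹ * x⁻¹ ∈ N) → x ∈ N ∨ z * x ∈ N)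
    (H3 : ∀ x, x * z * x⁻¹ * z ∈ N → ∀ p ∈ P, x * p * x⁻¹ ∈ P)
    (g : T) (hg : g * z * g⁻¹ ∈ P) (hgN : g * z * g⁻¹ * z ∉ N) :
    Cfsg.IsLargeExtraspecial (P.map (QuotientGroup.mk' N)) := by
  have hone : ∀ x : T, QuotientGroup.mk' N x = 1 ↔ x ∈ N := fun x => QuotientGroup.eq_one_iff x
  have hzinv : z⁻¹ = z := inv_eq_of_mul_eq_one_right hzz
  have H2' : ∀ x : T ⧸ N, (∀ q ∈ P.map (QuotientGroup.mk' N), q * x = x * q) →
      x = 1 ∨ x = QuotientGroup.mk' N z := by
    intro x hx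
    obtain ⟨x, rfl⟩ := QuotientGroup.mk'_surjective N x
    have h1 : ∀ p ∈ P, p * x * p⁻¹ * x⁻¹ ∈ N := by
      intro p hp
      have h2 := hx _ (Subgroup.mem_map_of_mem _ hp)
      rw [← hone, map_mul, map_mul, map_mul, h2, map_inv, map_inv]
      group
    rcases H2 x h1 with h2 | h2
    · left; exact (hone x).mpr h2
    · right
      rw [← hone, map_mul] at h2
      have h3 : QuotientGroup.mk' N z * QuotientGroup.mk' N z = 1 := by
        rw [← map_mul, hzz, map_one]
      calc QuotientGroup.mk' N x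
          = (QuotientGroup.mk' N z * QuotientGroup.mk' N z) * QuotientGroup.mk' N x := by
            rw [h3, one_mul]
        _ = QuotientGroup.mk' N z * (QuotientGroup.mk' N z * QuotientGroup.mk' N x) := by group
        _ = QuotientGroup.mk' N z := by rw [h2, mul_one]
  have hsN : g * z * g⁻¹ ∉ N := by
    intro h
    apply hzN
    have := hN.conj_mem _ h g⁻¹
    have e : g⁻¹ * (g * z * g⁻¹) * g⁻¹⁻¹ = z := by group
    rwa [e] at this
  have hsz : QuotientGroup.mk' N g * QuotientGroup.mk' N z * (QuotientGroup.mk' N g)⁻¹ ≠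
      QuotientGroup.mk' N z := by
    intro h
    apply hgN
    rw [← hone, map_mul, map_mul, map_mul, map_inv, h, ← map_mul, hzz, map_one]
  have hES : ES (P.map (QuotientGroup.mk' N)) (QuotientGroup.mk' N z) := by
    refine ⟨two.map _, fun h => hzN ((hone z).mp h), Subgroup.mem_map_of_mem _ hzP,
      by rw [← map_mul, hzz, map_one], ?_, ?_, ?_, ?_, ?_⟩
    · rintro _ ⟨p, hp, rfl⟩
      rw [← map_mul, ← map_mul, hzc p hp]
    · intro y _ hy
      exact H2' y hy
    · rintro _ ⟨x, hx, rfl⟩ _ ⟨y, hy, rfl⟩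
      rcases hcomm x hx y hy with h | h
      · left; rw [← map_mul, ← map_mul, h]
      · right; rw [← map_mul, ← map_mul, ← map_mul, h]
    · rintro _ ⟨x, hx, rfl⟩
      rcases hsq x hx with h | h
      · left; rw [← map_mul, h, map_one]
      · right; rw [← map_mul, h]
    · by_contra hcon
      push Not at hcon
      have h1 : QuotientGroup.mk' N (g * z * g⁻¹) ∈ P.map (QuotientGroup.mk' N) :=
        Subgroup.mem_map_of_mem _ hg
      rcases H2' _ (fun q hq => hcon q hq _ h1) with h2 | h2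
      · exact hsN ((hone _).mp h2)
      · apply hsz
        rw [map_mul, map_mul, map_inv] at h2
        exact h2
  refine hES.large_of_elementwise H2' ?_ (QuotientGroup.mk' N g) ?_ hsz
  · intro x hx
    obtain ⟨x, rfl⟩ := QuotientGroup.mk'_surjective N x
    rintro _ ⟨p, hp, rfl⟩
    have h1 : x * z * x⁻¹ * z ∈ N := by
      rw [← hone, map_mul, map_mul, map_mul, hx, map_inv]
      calc QuotientGroup.mk' N z * QuotientGroup.mk' N x * (QuotientGroup.mk' N x)⁻¹ *
          QuotientGroup.mk' N z = QuotientGroup.mk' N z * QuotientGroup.mk' N z := by group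
        _ = 1 := by rw [← map_mul, hzz, map_one]
    refine ⟨x * p * x⁻¹, H3 x h1 p hp, ?_⟩
    rw [map_mul, map_mul, map_inv]
  · rw [← map_inv, ← map_mul, ← map_mul]
    exact Subgroup.mem_map_of_mem _ hg

/-- largeness criterion in a section `T / N` of `G`, everything stated in `G`. -/
theorem large_section [Finite G] {Q : Subgroup G} {z : G} (hES : ES Q z)
    (T N P : Subgroup G) (hPQ : P ≤ Q) (hzP : z ∈ P) (hPT : P ≤ T)
    [hn : (N.subgroupOf T).Normal] (hzN : z ∉ N)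
    (H2 : ∀ x ∈ T, (∀ p ∈ P, p * x * p⁻¹ * x⁻¹ ∈ N) → x ∈ N ∨ z * x ∈ N)
    (H3 : ∀ x ∈ T, x * z * x⁻¹ * z ∈ N → ∀ p ∈ P, x * p * x⁻¹ ∈ P)
    (g : G) (hgT : g ∈ T) (hg : g * z * g⁻¹ ∈ P) (hgN : g * z * g⁻¹ * z ∉ N) :
    Cfsg.IsLargeExtraspecial ((P.subgroupOf T).map (QuotientGroup.mk' (N.subgroupOf T))) := by
  refine large_quotient (N.subgroupOf T) (P.subgroupOf T) ⟨z, hPT hzP⟩ ?_ ?_ ?_ ?_ ?_ ?_ ?_ ?_ ?_
    ⟨g, hgT⟩ ?_ ?_
  · exact (hES.two.to_le hPQ).comap_subtype
  · exact Subgroup.mem_subgroupOf.mpr hzP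
  · intro h; exact hzN (Subgroup.mem_subgroupOf.mp h)
  · ext; exact hES.z_sq
  · intro p hp; ext; exact hES.z_comm p (hPQ (Subgroup.mem_subgroupOf.mp hp))
  · intro x hx y hy
    rcases hES.comm x (hPQ (Subgroup.mem_subgroupOf.mp hx)) y
      (hPQ (Subgroup.mem_subgroupOf.mp hy)) with h | h
    · left; ext; exact h
    · right; ext; exact h
  · intro x hx
    rcases hES.sq x (hPQ (Subgroup.mem_subgroupOf.mp hx)) with h | h
    · left; ext; exact h
    · right; ext; exact h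
  · intro x hx
    have := H2 x x.2 (fun p hp => by
      have := hx ⟨p, hPT hp⟩ (Subgroup.mem_subgroupOf.mpr hp)
      exact Subgroup.mem_subgroupOf.mp this)
    rcases this with h | h
    · left; exact Subgroup.mem_subgroupOf.mpr h
    · right; exact Subgroup.mem_subgroupOf.mpr h
  · intro x hx p hp
    exact Subgroup.mem_subgroupOf.mpr
      (H3 x x.2 (Subgroup.mem_subgroupOf.mp hx) p (Subgroup.mem_subgroupOf.mp hp))
  · exact Subgroup.mem_subgroupOf.mpr hg
  · intro h; exact hgN (Subgroup.mem_subgroupOf.mp h)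

end Cfsg.Agent.Lib.Helper90
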