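import Mathlib
import Cfsg.Prelude.Def_MonsterType
import Cfsg.Agent.Lib.Helper90.ESClass1
import Cfsg.Agent.Lib.Helper90.Section

set_option autoImplicit false

namespace Cfsg.Agent.Lib.Helper90

variable {G : Type*} [Group G]

/-- the number of elements of `Q` squaring to one. -/
noncomputable def sqc (Q : Subgroup G) : ℕ := {g : G | g ∈ Q ∧ g * g = 1}.ncard

theorem card_eq_two_of_mem_iff {Q : Subgroup G} {z : G} (hz1 : z ≠ 1) (hzz : z * z = 1)
    (h : ∀ q, q ∈ Q ↔ q = 1 ∨ q = z) : Nat.card Q = 2 := by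
  have : Q = Subgroup.zpowers z := by
    ext q
    rw [h, mem_zpowers_iff_of_sq hzz]
  rw [this, Nat.card_zpowers]
  apply orderOf_eq_prime
  · rw [pow_two]; exact hzz
  · exact hz1

namespace PES

variable {Q : Subgroup G} {z x y : G}

theorem sqc_add [Finite G] (h : PES Q z) :
    sqc Q + {g : G | g ∈ Q ∧ g * g = z}.ncard = Nat.card Q := by
  have h1 : (Q : Set G) = {g : G | g ∈ Q ∧ g * g = 1} ∪ {g : G | g ∈ Q ∧ g * g = z} := by
    ext g
    constructor
    · intro hg
      rcases h.sq g hg with h2 | h2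
      · left; exact ⟨hg, h2⟩
      · right; exact ⟨hg, h2⟩
    · rintro (hg | hg)
      · exact hg.1
      · exact hg.1
  have hd : Disjoint {g : G | g ∈ Q ∧ g * g = 1} {g : G | g ∈ Q ∧ g * g = z} := by
    rw [Set.disjoint_left]
    rintro g ⟨-, h2⟩ ⟨-, h3⟩
    exact h.z_ne (h3.symm.trans h2)
  have e3 : (Q : Set G).ncard = Nat.card Q := rfl
  rw [← e3, h1, Set.ncard_union_eq hd (Set.toFinite _) (Set.toFinite _)]
  rfl

/-- the counting formula for a splitting by two non-commuting involutions. -/
theorem sqc_dsplit [Finite G] (h : PES Q z) (hx : x ∈ Q) (hy : y ∈ Q) (hxy : x * y ≠ y * x)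
    (hxx : x * x = 1) (hyy : y * y = 1) :
    sqc Q = 2 * sqc (cent2 Q x y) + Nat.card (cent2 Q x y) := by
  have hC := h.cent2_pes hx hy hxy
  have hle : cent2 Q x y ≤ Q := fun c hc => (mem_cent2.mp hc).1
  have h1 := h.ncard_split hx hy hxy {g : G | g ∈ Q ∧ g * g = 1} (fun _ hs => hs.1)
  have hxy' := h.anti hx hy hxy
  have e1 : {c | c ∈ cent2 Q x y ∧ c ∈ {g : G | g ∈ Q ∧ g * g = 1}} =
      {g : G | g ∈ cent2 Q x y ∧ g * g = 1} := by
    ext c
    exact ⟨fun hc => ⟨hc.1, hc.2.2⟩, fun hc => ⟨hc.1, hle hc.1, hc.2⟩⟩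
  have e2 : {c | c ∈ cent2 Q x y ∧ y * c ∈ {g : G | g ∈ Q ∧ g * g = 1}} =
      {g : G | g ∈ cent2 Q x y ∧ g * g = 1} := by
    ext c
    have key : c ∈ cent2 Q x y → y * c * (y * c) = c * c := by
      intro hc
      obtain ⟨-, -, hcy⟩ := mem_cent2.mp hc
      calc y * c * (y * c) = y * (c * y) * c := by group
        _ = (y * y) * c * c := by rw [hcy]; group
        _ = c * c := by rw [hyy, one_mul]
    constructor
    · rintro ⟨hc, -, h2⟩
      exact ⟨hc, by rw [← key hc]; exact h2⟩
    · rintro ⟨hc, h2⟩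
      exact ⟨hc, Q.mul_mem hy (hle hc), by rw [key hc]; exact h2⟩
  have e3 : {c | c ∈ cent2 Q x y ∧ x * c ∈ {g : G | g ∈ Q ∧ g * g = 1}} =
      {g : G | g ∈ cent2 Q x y ∧ g * g = 1} := by
    ext c
    have key : c ∈ cent2 Q x y → x * c * (x * c) = c * c := by
      intro hc
      obtain ⟨-, hcx, -⟩ := mem_cent2.mp hc
      calc x * c * (x * c) = x * (c * x) * c := by group
        _ = (x * x) * c * c := by rw [hcx]; group
        _ = c * c := by rw [hxx, one_mul]
    constructor
    · rintro ⟨hc, -, h2⟩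
      exact ⟨hc, by rw [← key hc]; exact h2⟩
    · rintro ⟨hc, h2⟩
      exact ⟨hc, Q.mul_mem hx (hle hc), by rw [key hc]; exact h2⟩
  have e4 : {c | c ∈ cent2 Q x y ∧ x * (y * c) ∈ {g : G | g ∈ Q ∧ g * g = 1}} =
      {g : G | g ∈ cent2 Q x y ∧ g * g = z} := by
    ext c
    have key : c ∈ cent2 Q x y → x * (y * c) * (x * (y * c)) = z * (c * c) := by
      intro hc
      obtain ⟨-, hcx, hcy⟩ := mem_cent2.mp hc
      have hzx : x * z = z * x := h.z_comm x hx
      calc x * (y * c) * (x * (y * c)) = x * y * (c * x) * y * c := by group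
        _ = x * y * x * (c * y) * c := by rw [hcx]; group
        _ = (x * y) * x * y * c * c := by rw [hcy]; group
        _ = z * y * (x * x) * y * c * c := by rw [hxy']; group
        _ = z * (y * y) * c * c := by rw [hxx]; group
        _ = z * (c * c) := by rw [hyy]; group
    constructor
    · rintro ⟨hc, -, h2⟩
      refine ⟨hc, ?_⟩
      rw [key hc] at h2
      calc c * c = (z * z) * (c * c) := by rw [h.z_sq, one_mul]
        _ = z * (z * (c * c)) := by group
        _ = z := by rw [h2, mul_one]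
    · rintro ⟨hc, h2⟩
      exact ⟨hc, Q.mul_mem hx (Q.mul_mem hy (hle hc)), by rw [key hc, h2, h.z_sq]⟩
  rw [e1, e2, e3, e4] at h1
  have h2 := hC.sqc_add
  unfold sqc at h2 ⊢
  omega

/-- a non-central involution is half of a pair of non-commuting involutions. -/
theorem exists_dpair (h : PES Q z) {t : G} (ht : t ∈ Q) (htt : t * t = 1) (ht1 : t ≠ 1)
    (htz : t ≠ z) : ∃ y ∈ Q, y * y = 1 ∧ t * y ≠ y * t := by
  obtain ⟨w, hw, hwt⟩ : ∃ w ∈ Q, t * w ≠ w * t := by
    by_contra hcon
    push Not at hcon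
    rcases h.center t ht (fun q hq => (hcon q hq).symm) with h1 | h1
    · exact ht1 h1
    · exact htz h1
  have hanti := h.anti ht hw hwt
  rcases h.sq w hw with h1 | h1
  · exact ⟨w, hw, h1, hwt⟩
  · have hzw : w * z = z * w := h.z_comm w hw
    have hzt : t * z = z * t := h.z_comm t ht
    refine ⟨t * w, Q.mul_mem ht hw, ?_, ?_⟩
    · calc t * w * (t * w) = (t * w) * t * w := by group
        _ = z * w * (t * t) * w := by rw [hanti]; group
        _ = z * (w * w) := by rw [htt]; group
        _ = 1 := by rw [h1, h.z_sq]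
    · intro e
      apply hwt
      calc t * w = t⁻¹ * (t * (t * w)) := by group
        _ = t⁻¹ * (t * w * t) := by rw [e]
        _ = w * t := by group

end PES

/-- an extraspecial group without non-central involutions has order eight. -/
theorem ES.card_of_no_involution [Finite G] {Q : Subgroup G} {z : G} (h : ES Q z)
    (hno : ∀ t ∈ Q, t * t = 1 → t = 1 ∨ t = z) : Nat.card Q = 8 ∧ sqc Q = 2 := by
  obtain ⟨x, hx, y, hy, hxy⟩ := h.nonab
  have hP := h.toPES
  have hC := hP.cent2_pes hx hy hxy
  have hxz : x * x = z := by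
    rcases h.sq x hx with h1 | h1
    · exfalso
      rcases hno x hx h1 with h2 | h2
      · apply hxy; rw [h2]; simp
      · apply hxy; rw [h2]; exact (h.z_comm y hy).symm
    · exact h1
  have hmem : ∀ c, c ∈ cent2 Q x y ↔ c = 1 ∨ c = z := by
    intro c
    constructor
    · intro hc
      obtain ⟨hcQ, hcx, hcy⟩ := mem_cent2.mp hc
      rcases h.sq c hcQ with h1 | h1
      · exact hno c hcQ h1
      · exfalso
        have h2 : (x * c) * (x * c) = 1 := by
          calc x * c * (x * c) = x * (c * x) * c := by group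
            _ = (x * x) * (c * c) := by rw [hcx]; group
            _ = 1 := by rw [hxz, h1, h.z_sq]
        have h3 : x ∈ cent2 Q x y := by
          rcases hno _ (Q.mul_mem hx hcQ) h2 with h4 | h4
          · have : x = c⁻¹ := eq_inv_of_mul_eq_one_left h4
            have h5 : c⁻¹ ∈ cent2 Q x y := Subgroup.inv_mem _ hc
            rwa [← this] at h5
          · have : x = z * c⁻¹ := by rw [← h4]; group
            have h5 : z * c⁻¹ ∈ cent2 Q x y := Subgroup.mul_mem _ hC.z_mem (Subgroup.inv_mem _ hc)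
            rwa [← this] at h5
        exact hxy (mem_cent2.mp h3).2.2
    · rintro (rfl | rfl)
      · exact Subgroup.one_mem _
      · exact hC.z_mem
  constructor
  · rw [hP.card_eq_four_mul hx hy hxy, card_eq_two_of_mem_iff h.z_ne h.z_sq hmem]
  · unfold sqc
    have : {g : G | g ∈ Q ∧ g * g = 1} = {1, z} := by
      ext g
      constructor
      · rintro ⟨hg, h1⟩
        rcases hno g hg h1 with h2 | h2
        · left; exact h2
        · right; exact h2
      · rintro (rfl | h2)
        · exact ⟨Q.one_mem, by simp⟩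
        · rw [Set.mem_singleton_iff] at h2
          rw [h2]; exact ⟨h.z_mem, h.z_sq⟩
    rw [this, Set.ncard_pair h.z_ne.symm]

/-- order and number of square roots of one. -/
theorem PES.card_and_count [Finite G] {z : G} : ∀ (n : ℕ) (Q : Subgroup G), Nat.card Q ≤ n →
    PES Q z → ∃ m : ℕ, Nat.card Q = 2 * (2 ^ m * 2 ^ m) ∧
      (sqc Q = 2 ^ m * 2 ^ m + 2 ^ m ∨ (1 ≤ m ∧ sqc Q + 2 ^ m = 2 ^ m * 2 ^ m)) := by
  intro n
  induction n with
  | zero =>
    intro Q hQ _
    have : 0 < Nat.card Q := Nat.card_pos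
    omega
  | succ n ih =>
    intro Q hQ h
    rcases h.es_or with hES | hmem
    · by_cases hinv : ∃ t ∈ Q, t * t = 1 ∧ t ≠ 1 ∧ t ≠ z
      · obtain ⟨t, ht, htt, ht1, htz⟩ := hinv
        obtain ⟨y, hy, hyy, hty⟩ := h.exists_dpair ht htt ht1 htz
        have hcard := h.card_eq_four_mul ht hy hty
        have hcount := h.sqc_dsplit ht hy hty htt hyy
        have hpos : 0 < Nat.card (cent2 Q t y) := Nat.card_pos
        obtain ⟨m, hm1, hm2⟩ := ih (cent2 Q t y) (by omega) (h.cent2_pes ht hy hty)
        refine ⟨m + 1, ?_, ?_⟩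
        · rw [hcard, hm1]; ring
        · have e : 2 ^ (m + 1) = 2 * 2 ^ m := by ring
          rw [e, hcount, hm1]
          rcases hm2 with h3 | ⟨-, h3⟩
          · left; rw [h3]; ring
          · right
            refine ⟨by omega, ?_⟩
            have : 2 * sqc (cent2 Q t y) + 2 * (2 ^ m * 2 ^ m) + 2 * 2 ^ m =
                2 * (sqc (cent2 Q t y) + 2 ^ m) + 2 * (2 ^ m * 2 ^ m) := by ring
            rw [this, h3]; ring
      · push Not at hinv
        have hno : ∀ t ∈ Q, t * t = 1 → t = 1 ∨ t = z := by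
          intro t ht htt
          by_cases h1 : t = 1
          · exact Or.inl h1
          · exact Or.inr (hinv t ht htt h1)
        obtain ⟨h8, h2⟩ := hES.card_of_no_involution hno
        exact ⟨1, by rw [h8]; norm_num, Or.inr ⟨le_refl 1, by rw [h2]; norm_num⟩⟩
    · refine ⟨0, ?_, Or.inl ?_⟩
      · rw [card_eq_two_of_mem_iff h.z_ne h.z_sq hmem]; norm_num
      · unfold sqc
        have : {g : G | g ∈ Q ∧ g * g = 1} = {1, z} := by
          ext g
          constructor
          · rintro ⟨hg, -⟩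
            rcases (hmem g).mp hg with h2 | h2
            · left; exact h2
            · right; exact h2
          · rintro (rfl | h2)
            · exact ⟨Q.one_mem, by simp⟩
            · rw [Set.mem_singleton_iff] at h2
              rw [h2]; exact ⟨h.z_mem, h.z_sq⟩
        rw [this, Set.ncard_pair h.z_ne.symm]; norm_num

end Cfsg.Agent.Lib.Helper90
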