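import Mathlib
import Cfsg.Prelude.Def_MonsterType
import Cfsg.Agent.Lib.Helper90.ESClass2
import Cfsg.Agent.Lib.Helper73.DihedralRec

set_option autoImplicit false

namespace Cfsg.Agent.Lib.Helper90

/-- two central products with isomorphic factors (compatibly on the intersections) are isomorphic. -/
theorem nonempty_mulEquiv_of_central_product {G G' : Type*} [Group G] [Group G']
    (A C Q : Subgroup G) (A' C' Q' : Subgroup G')
    (hsup : A ⊔ C = Q) (hcomm : ∀ a ∈ A, ∀ c ∈ C, a * c = c * a)
    (hsup' : A' ⊔ C' = Q') (hcomm' : ∀ a ∈ A', ∀ c ∈ C', a * c = c * a)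
    (φ : A ≃* A') (ψ : C ≃* C')
    (hcompat : ∀ (a : A) (c : C), (a : G) = c ↔ ((φ a : A') : G') = ψ c) :
    Nonempty (Q ≃* Q') := by
  have hc1 : ∀ (m : A) (n : C), Commute (A.subtype m) (C.subtype n) := by
    intro a c
    rw [commute_iff_eq, Subgroup.coe_subtype, Subgroup.coe_subtype]
    exact hcomm a a.2 c c.2
  have hc2 : ∀ (m : A) (n : C), Commute ((A'.subtype.comp φ.toMonoidHom) m)
      ((C'.subtype.comp ψ.toMonoidHom) n) := by
    intro a c
    rw [commute_iff_eq]
    simp only [MonoidHom.coe_comp, Function.comp_apply, Subgroup.coe_subtype,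
      MulEquiv.coe_toMonoidHom]
    exact hcomm' _ (φ a).2 _ (ψ c).2
  obtain ⟨f, hf⟩ : ∃ f : A × C →* G, f = MonoidHom.noncommCoprod A.subtype C.subtype hc1 :=
    ⟨_, rfl⟩
  obtain ⟨g, hg⟩ : ∃ g : A × C →* G', g = MonoidHom.noncommCoprod
    (A'.subtype.comp φ.toMonoidHom) (C'.subtype.comp ψ.toMonoidHom) hc2 := ⟨_, rfl⟩
  have hfr : f.range = Q := by
    rw [hf, MonoidHom.noncommCoprod_range, Subgroup.range_subtype, Subgroup.range_subtype, hsup]
  have hgr : g.range = Q' := by
    rw [hg, MonoidHom.noncommCoprod_range, MonoidHom.range_comp, MonoidHom.range_comp]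
    have e1 : φ.toMonoidHom.range = ⊤ := MonoidHom.range_eq_top.mpr φ.surjective
    have e2 : ψ.toMonoidHom.range = ⊤ := MonoidHom.range_eq_top.mpr ψ.surjective
    rw [e1, e2, ← MonoidHom.range_eq_map, ← MonoidHom.range_eq_map, Subgroup.range_subtype,
      Subgroup.range_subtype, hsup']
  have hker : f.ker = g.ker := by
    ext ⟨a, c⟩
    rw [MonoidHom.mem_ker, MonoidHom.mem_ker, hf, hg]
    simp only [MonoidHom.noncommCoprod_apply, Subgroup.coe_subtype, MonoidHom.coe_comp,
      Function.comp_apply, MulEquiv.coe_toMonoidHom]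
    have h1 := hcompat a c⁻¹
    rw [map_inv] at h1
    constructor
    · intro h
      have h2 : (a : G) = ((c⁻¹ : C) : G) := by
        rw [Subgroup.coe_inv]; exact eq_inv_of_mul_eq_one_left h
      have h3 := h1.mp h2
      rw [h3, Subgroup.coe_inv]; group
    · intro h
      have h2 : ((φ a : A') : G') = (((ψ c)⁻¹ : C') : G') := by
        rw [Subgroup.coe_inv]; exact eq_inv_of_mul_eq_one_left h
      have h3 := h1.mpr h2
      rw [h3, Subgroup.coe_inv]; group
  exact ⟨(MulEquiv.subgroupCongr hfr).symm.trans ((QuotientGroup.quotientKerEquivRange f).symm.trans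
    ((QuotientGroup.quotientMulEquivOfEq hker).trans ((QuotientGroup.quotientKerEquivRange g).trans
      (MulEquiv.subgroupCongr hgr))))⟩

variable {G : Type*} [Group G]

/-- an isomorphism maps the central involution to the central involution. -/
theorem PES.map_z {G' : Type*} [Group G'] {Q : Subgroup G} {z : G} {Q' : Subgroup G'} {z' : G'}
    (h : PES Q z) (h' : PES Q' z') (φ : Q ≃* Q') : ((φ ⟨z, h.z_mem⟩ : Q') : G') = z' := by
  have h1 : ∀ q ∈ Q', q * ((φ ⟨z, h.z_mem⟩ : Q') : G') = ((φ ⟨z, h.z_mem⟩ : Q') : G') * q := by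
    intro q hq
    obtain ⟨p, hp⟩ := φ.surjective ⟨q, hq⟩
    have h2 : p * ⟨z, h.z_mem⟩ = ⟨z, h.z_mem⟩ * p := by
      ext; exact h.z_comm p p.2
    have h3 := congrArg (fun w => ((φ w : Q') : G')) h2
    simp only [map_mul, Subgroup.coe_mul, hp] at h3
    exact h3
  rcases h'.center _ (φ ⟨z, h.z_mem⟩).2 h1 with h2 | h2
  · exfalso
    apply h.z_ne
    have h3 : φ ⟨z, h.z_mem⟩ = 1 := by ext; exact h2
    have h4 := (map_eq_one_iff φ φ.injective).mp h3
    exact congrArg Subtype.val h4
  · exact h2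

namespace PES

variable {Q : Subgroup G} {z x y : G}

theorem closure_le (hx : x ∈ Q) (hy : y ∈ Q) : Subgroup.closure ({x, y} : Set G) ≤ Q := by
  rw [Subgroup.closure_le]
  rintro g (rfl | hg)
  · exact hx
  · rw [Set.mem_singleton_iff] at hg; rw [hg]; exact hy

theorem closure_comm : ∀ a ∈ Subgroup.closure ({x, y} : Set G), ∀ c ∈ cent2 Q x y,
    a * c = c * a := by
  intro a ha c hc
  obtain ⟨-, hcx, hcy⟩ := mem_cent2.mp hc
  have : Subgroup.closure ({x, y} : Set G) ≤ Subgroup.centralizer ({c} : Set G) := by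
    rw [Subgroup.closure_le]
    rintro g (rfl | hg)
    · exact Subgroup.mem_centralizer_singleton_iff.mpr hcx.symm
    · rw [Set.mem_singleton_iff] at hg; rw [hg]
      exact Subgroup.mem_centralizer_singleton_iff.mpr hcy.symm
  exact Subgroup.mem_centralizer_singleton_iff.mp (this ha)

theorem closure_sup (h : PES Q z) (hx : x ∈ Q) (hy : y ∈ Q) (hxy : x * y ≠ y * x) :
    Subgroup.closure ({x, y} : Set G) ⊔ cent2 Q x y = Q := by
  have hxA : x ∈ Subgroup.closure ({x, y} : Set G) := Subgroup.subset_closure (by simp)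
  have hyA : y ∈ Subgroup.closure ({x, y} : Set G) := Subgroup.subset_closure (by simp)
  apply le_antisymm
  · exact sup_le (closure_le hx hy) (fun c hc => (mem_cent2.mp hc).1)
  · intro q hq
    obtain ⟨c, hc, h1 | h1 | h1 | h1⟩ := h.cover hx hy hxy q hq
    · rw [h1]; exact Subgroup.mem_sup_right hc
    · rw [h1]; exact Subgroup.mul_mem _ (Subgroup.mem_sup_left hyA) (Subgroup.mem_sup_right hc)
    · rw [h1]; exact Subgroup.mul_mem _ (Subgroup.mem_sup_left hxA) (Subgroup.mem_sup_right hc)
    · rw [h1]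
      exact Subgroup.mul_mem _ (Subgroup.mem_sup_left hxA)
        (Subgroup.mul_mem _ (Subgroup.mem_sup_left hyA) (Subgroup.mem_sup_right hc))

theorem closure_es (h : PES Q z) (hx : x ∈ Q) (hy : y ∈ Q) (hxy : x * y ≠ y * x) :
    ES (Subgroup.closure ({x, y} : Set G)) z :=
  (h.toES ⟨x, hx, y, hy, hxy⟩).central_factor _ _ (h.closure_sup hx hy hxy) closure_comm
    ⟨x, Subgroup.subset_closure (by simp), y, Subgroup.subset_closure (by simp), hxy⟩

/-- the intersection of the two central factors. -/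
theorem mem_closure_inf (h : PES Q z) (hx : x ∈ Q) (hy : y ∈ Q) (hxy : x * y ≠ y * x) {w : G}
    (hw : w ∈ Subgroup.closure ({x, y} : Set G)) (hwx : w * x = x * w) (hwy : w * y = y * w) :
    w = 1 ∨ w = z := by
  apply (h.closure_es hx hy hxy).center w hw
  intro q hq
  exact closure_comm (Q := Q) q hq w (mem_cent2.mpr ⟨closure_le hx hy hw, hwx, hwy⟩)

theorem card_closure [Finite G] (h : PES Q z) (hx : x ∈ Q) (hy : y ∈ Q) (hxy : x * y ≠ y * x) :
    Nat.card (Subgroup.closure ({x, y} : Set G)) = 8 := by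
  have hA := (h.closure_es hx hy hxy).toPES
  have hxA : x ∈ Subgroup.closure ({x, y} : Set G) := Subgroup.subset_closure (by simp)
  have hyA : y ∈ Subgroup.closure ({x, y} : Set G) := Subgroup.subset_closure (by simp)
  rw [hA.card_eq_four_mul hxA hyA hxy, card_eq_two_of_mem_iff h.z_ne h.z_sq]
  intro q
  constructor
  · intro hq
    obtain ⟨h1, h2, h3⟩ := mem_cent2.mp hq
    exact h.mem_closure_inf hx hy hxy h1 h2 h3
  · rintro (rfl | rfl)
    · exact Subgroup.one_mem _
    · exact mem_cent2.mpr ⟨hA.z_mem, (h.z_comm x hx).symm, (h.z_comm y hy).symm⟩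

/-- two non-commuting involutions generate a dihedral group of order eight. -/
theorem closure_dihedral [Finite G] (h : PES Q z) (hx : x ∈ Q) (hy : y ∈ Q)
    (hxy : x * y ≠ y * x) (hxx : x * x = 1) (hyy : y * y = 1) :
    Nonempty (Subgroup.closure ({x, y} : Set G) ≃* DihedralGroup 4) := by
  have : Fact (Nat.Prime 2) := ⟨Nat.prime_two⟩
  have hxA : x ∈ Subgroup.closure ({x, y} : Set G) := Subgroup.subset_closure (by simp)
  have hyA : y ∈ Subgroup.closure ({x, y} : Set G) := Subgroup.subset_closure (by simp)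
  have hxy' := h.anti hx hy hxy
  have hsq : (x * y) * (x * y) = z := by
    calc x * y * (x * y) = (x * y) * x * y := by group
      _ = z * y * (x * x) * y := by rw [hxy']; group
      _ = z * (y * y) := by rw [hxx]; group
      _ = z := by rw [hyy, mul_one]
  have hxinv : x⁻¹ = x := inv_eq_of_mul_eq_one_right hxx
  have hyinv : y⁻¹ = y := inv_eq_of_mul_eq_one_right hyy
  refine Cfsg.Agent.Lib.Helper73.nonempty_mulEquiv_dihedralGroup 4
    (⟨x * y, Subgroup.mul_mem _ hxA hyA⟩ : Subgroup.closure ({x, y} : Set G)) ⟨x, hxA⟩ ?_ ?_ ?_ ?_ ?_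
  · rw [Subgroup.orderOf_mk]
    have e : (4 : ℕ) = 2 ^ (1 + 1) := by norm_num
    rw [e]
    apply orderOf_eq_prime_pow
    · rw [pow_one, pow_two, hsq]; exact h.z_ne
    · have : (x * y) ^ 2 ^ (1 + 1) = ((x * y) * (x * y)) * ((x * y) * (x * y)) := by
        rw [← pow_two, ← pow_two, ← pow_mul]; norm_num
      rw [this, hsq, h.z_sq]
  · ext; simp [pow_two, hxx]
  · ext
    simp only [Subgroup.coe_mul, Subgroup.coe_inv]
    rw [hxinv]
    calc x * (x * y) * x = (x * x) * y * x := by group
      _ = y⁻¹ * x⁻¹ := by rw [hxx, hxinv, hyinv, one_mul]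
      _ = (x * y)⁻¹ := by group
  · intro hmem
    apply hxy
    rw [Subgroup.mem_zpowers_iff] at hmem
    obtain ⟨k, hk⟩ := hmem
    have hk' : (x * y) ^ k = x := by
      have := congrArg Subtype.val hk
      simpa using this
    have hc : Commute (x * y) x := by
      have : Commute (x * y) ((x * y) ^ k) := (Commute.refl _).zpow_right k
      rwa [hk'] at this
    have h1 : x * y * x = x * (x * y) := hc
    calc x * y = x⁻¹ * (x * (x * y)) := by group
      _ = x⁻¹ * (x * y * x) := by rw [h1]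
      _ = y * x := by group
  · rw [h.card_closure hx hy hxy]

end PES

/-- an extraspecial group without non-central involutions is quaternion of order eight. -/
theorem ES.quaternion_of_no_involution [Finite G] {Q : Subgroup G} {z : G} (h : ES Q z)
    (hno : ∀ t ∈ Q, t * t = 1 → t = 1 ∨ t = z) : Nonempty (Q ≃* QuaternionGroup 2) := by
  have : Fact (Nat.Prime 2) := ⟨Nat.prime_two⟩
  obtain ⟨x, hx, y, hy, hxy⟩ := h.nonab
  have hsqz : ∀ w ∈ Q, (∃ v ∈ Q, w * v ≠ v * w) → w * w = z := by
    rintro w hw ⟨v, hv, hwv⟩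
    rcases h.sq w hw with h1 | h1
    · exfalso
      rcases hno w hw h1 with h2 | h2
      · apply hwv; rw [h2]; simp
      · apply hwv; rw [h2]; exact (h.z_comm v hv).symm
    · exact h1
  have hxz := hsqz x hx ⟨y, hy, hxy⟩
  have hyz := hsqz y hy ⟨x, hx, fun e => hxy e.symm⟩
  have hxy' : x * y = z * (y * x) := (h.comm x hx y hy).resolve_left hxy
  refine Cfsg.Agent.Lib.Helper73.nonempty_mulEquiv_quaternionGroup 2 (⟨x, hx⟩ : Q) ⟨y, hy⟩
    ?_ ?_ ?_ ?_ ?_
  · rw [Subgroup.orderOf_mk]
    have e : (2 * 2 : ℕ) = 2 ^ (1 + 1) := by norm_num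
    rw [e]
    apply orderOf_eq_prime_pow
    · rw [pow_one, pow_two, hxz]; exact h.z_ne
    · have : x ^ 2 ^ (1 + 1) = (x * x) * (x * x) := by
        rw [← pow_two, ← pow_two, ← pow_mul]; norm_num
      rw [this, hxz, h.z_sq]
  · ext; simp [pow_two, hxz, hyz]
  · ext
    simp only [Subgroup.coe_mul, Subgroup.coe_inv]
    have hzx : x * z = z * x := h.z_comm x hx
    have h1 : y * x = z * (x * y) := by
      rw [hxy', ← mul_assoc, h.z_sq, one_mul]
    have h2 : x⁻¹ = z * x := by
      apply inv_eq_of_mul_eq_one_right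
      calc x * (z * x) = (x * z) * x := by group
        _ = z * (x * x) := by rw [hzx]; group
        _ = 1 := by rw [hxz, h.z_sq]
    rw [h2, h1]; group
  · intro hmem
    apply hxy
    rw [Subgroup.mem_zpowers_iff] at hmem
    obtain ⟨k, hk⟩ := hmem
    have hk' : x ^ k = y := by
      have := congrArg Subtype.val hk
      simpa using this
    have : Commute x (x ^ k) := (Commute.refl _).zpow_right k
    rwa [hk'] at this
  · rw [(h.card_of_no_involution hno).1]

end Cfsg.Agent.Lib.Helper90
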