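import Mathlib
import Cfsg.Prelude.Def_MonsterType
import Cfsg.Agent.Lib.Helper90.ESClass3
import Cfsg.Agent.Lib.Helper48.Extra2

set_option autoImplicit false

namespace Cfsg.Agent.Lib.Helper90

universe u v

theorem sqc_pos {G : Type*} [Group G] [Finite G] (Q : Subgroup G) : 0 < sqc Q := by
  unfold sqc
  rw [Set.ncard_pos (Set.toFinite _)]
  exact ⟨1, Q.one_mem, by simp⟩

/-- gluing step of the isomorphism theorem. -/
theorem PES.glue {G : Type u} {G' : Type v} [Group G] [Group G'] [Finite G] [Finite G']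
    {z : G} {z' : G'} {Q : Subgroup G} {Q' : Subgroup G'} (h : PES Q z) (h' : PES Q' z')
    {x y : G} {x' y' : G'} (hx : x ∈ Q) (hy : y ∈ Q) (hxy : x * y ≠ y * x)
    (hxx : x * x = 1) (hyy : y * y = 1)
    (hx' : x' ∈ Q') (hy' : y' ∈ Q') (hxy' : x' * y' ≠ y' * x')
    (hxx' : x' * x' = 1) (hyy' : y' * y' = 1)
    (ψ : cent2 Q x y ≃* cent2 Q' x' y') : Nonempty (Q ≃* Q') := by
  obtain ⟨φ1⟩ := h.closure_dihedral hx hy hxy hxx hyy
  obtain ⟨φ2⟩ := h'.closure_dihedral hx' hy' hxy' hxx' hyy'
  obtain ⟨φ, hφ⟩ : ∃ φ, φ = φ1.trans φ2.symm := ⟨_, rfl⟩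
  have hA := (h.closure_es hx hy hxy).toPES
  have hA' := (h'.closure_es hx' hy' hxy').toPES
  have hC := h.cent2_pes hx hy hxy
  have hC' := h'.cent2_pes hx' hy' hxy'
  have hφz := hA.map_z hA' φ
  have hψz := hC.map_z hC' ψ
  refine nonempty_mulEquiv_of_central_product _ _ Q _ _ Q' (h.closure_sup hx hy hxy)
    closure_comm (h'.closure_sup hx' hy' hxy') closure_comm φ ψ ?_
  intro a c
  constructor
  · intro hac
    obtain ⟨-, hcx, hcy⟩ := mem_cent2.mp c.2
    rcases h.mem_closure_inf hx hy hxy a.2 (hac ▸ hcx) (hac ▸ hcy) with h1 | h1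
    · have ha : a = 1 := by ext; exact h1
      have hc : c = 1 := by ext; rw [← hac]; exact h1
      rw [ha, hc, map_one, map_one]; rfl
    · have ha : a = ⟨z, hA.z_mem⟩ := by ext; exact h1
      have hc : c = ⟨z, hC.z_mem⟩ := by ext; rw [← hac]; exact h1
      rw [ha, hc, hφz, hψz]
  · intro hac
    obtain ⟨-, hcx, hcy⟩ := mem_cent2.mp (ψ c).2
    rcases h'.mem_closure_inf hx' hy' hxy' (φ a).2 (hac ▸ hcx) (hac ▸ hcy) with h1 | h1
    · have ha : φ a = 1 := by ext; exact h1
      have hc : ψ c = 1 := by ext; rw [← hac]; exact h1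
      rw [(map_eq_one_iff φ φ.injective).mp ha, (map_eq_one_iff ψ ψ.injective).mp hc]; rfl
    · have ha : φ a = φ ⟨z, hA.z_mem⟩ := by ext; rw [hφz]; exact h1
      have hc : ψ c = ψ ⟨z, hC.z_mem⟩ := by ext; rw [hψz, ← hac]; exact h1
      rw [φ.injective ha, ψ.injective hc]

/-- extraspecial `2`-groups with the same order and the same number of square roots of one are
isomorphic. -/
theorem PES.nonempty_mulEquiv {G : Type u} {G' : Type v} [Group G] [Group G'] [Finite G]
    [Finite G'] {z : G} {z' : G'} : ∀ (n : ℕ) (Q : Subgroup G) (Q' : Subgroup G'),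
    Nat.card Q ≤ n → PES Q z → PES Q' z' → Nat.card Q = Nat.card Q' → sqc Q = sqc Q' →
    Nonempty (Q ≃* Q') := by
  have : Fact (Nat.Prime 2) := ⟨Nat.prime_two⟩
  intro n
  induction n with
  | zero =>
    intro Q Q' hQ _ _ _ _
    have : 0 < Nat.card Q := Nat.card_pos
    omega
  | succ n ih =>
    intro Q Q' hQ h h' hcard hsq
    rcases h.es_or with hES | hmem
    · rcases h'.es_or with hES' | hmem'
      · by_cases hinv : ∃ t ∈ Q, t * t = 1 ∧ t ≠ 1 ∧ t ≠ z
        · obtain ⟨t, ht, htt, ht1, htz⟩ := hinv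
          obtain ⟨y, hy, hyy, hty⟩ := h.exists_dpair ht htt ht1 htz
          have hc1 := h.card_eq_four_mul ht hy hty
          have hs1 := h.sqc_dsplit ht hy hty htt hyy
          have hpos : 0 < Nat.card (cent2 Q t y) := Nat.card_pos
          by_cases hinv' : ∃ t ∈ Q', t * t = 1 ∧ t ≠ 1 ∧ t ≠ z'
          · obtain ⟨t', ht', htt', ht1', htz'⟩ := hinv'
            obtain ⟨y', hy', hyy', hty'⟩ := h'.exists_dpair ht' htt' ht1' htz'
            have hc2 := h'.card_eq_four_mul ht' hy' hty'
            have hs2 := h'.sqc_dsplit ht' hy' hty' htt' hyy'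
            obtain ⟨ψ⟩ := ih (cent2 Q t y) (cent2 Q' t' y') (by omega) (h.cent2_pes ht hy hty)
              (h'.cent2_pes ht' hy' hty') (by omega) (by omega)
            exact h.glue h' ht hy hty htt hyy ht' hy' hty' htt' hyy' ψ
          · exfalso
            push Not at hinv'
            have hno : ∀ t ∈ Q', t * t = 1 → t = 1 ∨ t = z' := by
              intro t ht htt
              by_cases h1 : t = 1
              · exact Or.inl h1
              · exact Or.inr (hinv' t ht htt h1)
            have h2 := (hES'.card_of_no_involution hno).2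
            have h3 := sqc_pos (cent2 Q t y)
            omega
        · push Not at hinv
          have hno : ∀ t ∈ Q, t * t = 1 → t = 1 ∨ t = z := by
            intro t ht htt
            by_cases h1 : t = 1
            · exact Or.inl h1
            · exact Or.inr (hinv t ht htt h1)
          by_cases hinv' : ∃ t ∈ Q', t * t = 1 ∧ t ≠ 1 ∧ t ≠ z'
          · exfalso
            obtain ⟨t', ht', htt', ht1', htz'⟩ := hinv'
            obtain ⟨y', hy', hyy', hty'⟩ := h'.exists_dpair ht' htt' ht1' htz'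
            have hs2 := h'.sqc_dsplit ht' hy' hty' htt' hyy'
            have hpos : 0 < Nat.card (cent2 Q' t' y') := Nat.card_pos
            have h2 := (hES.card_of_no_involution hno).2
            have h3 := sqc_pos (cent2 Q' t' y')
            omega
          · push Not at hinv'
            have hno' : ∀ t ∈ Q', t * t = 1 → t = 1 ∨ t = z' := by
              intro t ht htt
              by_cases h1 : t = 1
              · exact Or.inl h1
              · exact Or.inr (hinv' t ht htt h1)
            obtain ⟨e1⟩ := hES.quaternion_of_no_involution hno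
            obtain ⟨e2⟩ := hES'.quaternion_of_no_involution hno'
            exact ⟨e1.trans e2.symm⟩
      · exfalso
        obtain ⟨x, hx, y, hy, hxy⟩ := hES.nonab
        have hc1 := h.card_eq_four_mul hx hy hxy
        have hc2 := card_eq_two_of_mem_iff h'.z_ne h'.z_sq hmem'
        omega
    · have hc1 := card_eq_two_of_mem_iff h.z_ne h.z_sq hmem
      exact ⟨mulEquivOfPrimeCardEq hc1 (hcard ▸ hc1)⟩

/-- type-level: an extraspecial `2`-group is `ES ⊤ z`. -/
theorem exists_es_top {E : Type*} [Group E] [Finite E] (hE : Cfsg.IsExtraspecial 2 E) :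
    ∃ z : E, ES (⊤ : Subgroup E) z := by
  have : Fact (Nat.Prime 2) := ⟨Nat.prime_two⟩
  have h2 := hE.2
  have hnt : Nontrivial (Subgroup.center E) := by
    rw [← Finite.one_lt_card_iff_nontrivial, h2]; norm_num
  obtain ⟨c, hc⟩ := exists_ne (1 : Subgroup.center E)
  have hc1 : (c : E) ≠ 1 := fun e => hc (by ext; exact e)
  have hcen : ∀ y : E, y ∈ Subgroup.center E → y = 1 ∨ y = c := by
    intro y hy
    by_cases h1 : y = 1
    · exact Or.inl h1
    · exact Or.inr (Cfsg.Agent.Lib.Helper29.center_eq_of_ne_one h2 hy c.2 h1 hc1)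
  refine ⟨c, hE.1.1.to_subgroup _, hc1, trivial, ?_, ?_, ?_, ?_, ?_, ?_⟩
  · exact Cfsg.Agent.Lib.Helper29.center_sq_eq_one h2 c.2
  · intro q _
    exact Subgroup.mem_center_iff.mp c.2 q
  · intro y _ hy
    exact hcen y (Subgroup.mem_center_iff.mpr (fun g => hy g trivial))
  · intro x _ y _
    rcases hcen _ (Cfsg.Agent.Lib.Helper48.comm_mem_center hE x y) with h1 | h1
    · left
      calc x * y = (x * y * x⁻¹ * y⁻¹) * (y * x) := by group
        _ = y * x := by rw [h1, one_mul]
    · right
      calc x * y = (x * y * x⁻¹ * y⁻¹) * (y * x) := by group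
        _ = c * (y * x) := by rw [h1]
  · intro x _
    have := hcen _ (Cfsg.Agent.Lib.Helper48.sq_mem_center hE x)
    rwa [pow_two] at this
  · by_contra hcon
    push Not at hcon
    have h3 : commutator E = ⊥ := by
      rw [commutator_def, Subgroup.commutator_eq_bot_iff_le_centralizer]
      intro x _
      rw [Subgroup.mem_centralizer_iff]
      intro y _
      exact hcon y trivial x trivial
    rw [hE.1.2.2] at h3
    rw [h3] at h2
    simp at h2

theorem sqc_top {E : Type*} [Group E] : sqc (⊤ : Subgroup E) = Nat.card {x : E // x ^ 2 = 1} := by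
  unfold sqc
  rw [← Nat.card_coe_set_eq]
  apply Nat.card_congr
  exact Equiv.subtypeEquivRight (fun x => by simp [pow_two])

/-- type-level classification: order and count. -/
theorem card_and_count_of_isExtraspecial {E : Type*} [Group E] [Finite E]
    (hE : Cfsg.IsExtraspecial 2 E) : ∃ m : ℕ, 1 ≤ m ∧ Nat.card E = 2 ^ (2 * m + 1) ∧
      (Nat.card {x : E // x ^ 2 = 1} = 2 ^ (2 * m) + 2 ^ m ∨
        Nat.card {x : E // x ^ 2 = 1} = 2 ^ (2 * m) - 2 ^ m) := by
  obtain ⟨z, hES⟩ := exists_es_top hE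
  obtain ⟨m, hm1, hm2⟩ := PES.card_and_count _ _ le_rfl hES.toPES
  rw [Subgroup.card_top] at hm1
  rw [sqc_top] at hm2
  have e1 : 2 ^ (2 * m + 1) = 2 * (2 ^ m * 2 ^ m) := by ring
  have e2 : 2 ^ (2 * m) = 2 ^ m * 2 ^ m := by ring
  refine ⟨m, ?_, by rw [hm1, e1], ?_⟩
  · rcases Nat.eq_zero_or_pos m with h0 | h0
    · exfalso
      subst h0
      obtain ⟨x, hx, y, hy, hxy⟩ := hES.nonab
      have := hES.toPES.card_eq_four_mul hx hy hxy
      rw [Subgroup.card_top, hm1] at this
      omega
    · exact h0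
  · rw [e2]
    rcases hm2 with h3 | ⟨-, h3⟩
    · left; exact h3
    · right; omega

/-- type-level classification: isomorphism. -/
theorem nonempty_mulEquiv_of_isExtraspecial {E : Type u} {E' : Type v} [Group E] [Group E']
    [Finite E] [Finite E'] (hE : Cfsg.IsExtraspecial 2 E) (hE' : Cfsg.IsExtraspecial 2 E')
    (hcard : Nat.card E = Nat.card E')
    (hsq : Nat.card {x : E // x ^ 2 = 1} = Nat.card {x : E' // x ^ 2 = 1}) :
    Nonempty (E ≃* E') := by
  obtain ⟨z, hES⟩ := exists_es_top hE
  obtain ⟨z', hES'⟩ := exists_es_top hE'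
  obtain ⟨e⟩ := PES.nonempty_mulEquiv _ _ _ le_rfl hES.toPES hES'.toPES
    (by rw [Subgroup.card_top, Subgroup.card_top, hcard]) (by rw [sqc_top, sqc_top, hsq])
  exact ⟨Subgroup.topEquiv.symm.trans (e.trans Subgroup.topEquiv)⟩

end Cfsg.Agent.Lib.Helper90
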