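import Mathlib

/-!
# Linear algebra over `ZMod 2` for the holomorph setting

`HV n = ZMod 2 × (Fin n → ZMod 2)`, the block maps `blk f k` fixing `hz0 = (1, 0)`.
-/

set_option autoImplicit false

namespace Cfsg.Agent.Lib.Helper90

open Module

abbrev HW (n : ℕ) := Fin n → ZMod 2
abbrev HV (n : ℕ) := ZMod 2 × HW n
abbrev HGL (n : ℕ) := HV n ≃ₗ[ZMod 2] HV n
abbrev HGW (n : ℕ) := HW n ≃ₗ[ZMod 2] HW n
abbrev HD (n : ℕ) := Dual (ZMod 2) (HW n)

def hz0 (n : ℕ) : HV n := (1, 0)

theorem hz0_ne (n : ℕ) : hz0 n ≠ 0 := by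
  intro h
  have := congrArg Prod.fst h
  simp [hz0] at this

theorem zmod2_add_self (a : ZMod 2) : a + a = 0 := by
  revert a; decide

theorem zmod2_cases (a : ZMod 2) : a = 0 ∨ a = 1 := by
  revert a; decide

theorem hv_add_self {n : ℕ} (v : HV n) : v + v = 0 := by
  ext
  · exact zmod2_add_self _
  · exact zmod2_add_self _

theorem hw_add_self {n : ℕ} (v : HW n) : v + v = 0 := by
  ext
  exact zmod2_add_self _

theorem hd_add_self {n : ℕ} (f : HD n) : f + f = 0 := by
  ext x
  simp only [LinearMap.coe_comp, Function.comp_apply, LinearMap.add_apply, LinearMap.zero_apply]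
  exact zmod2_add_self _

/-- the block map `(a, w) ↦ (a + f w, k w)`. -/
def blk {n : ℕ} (f : HD n) (k : HGW n) : HGL n where
  toFun x := (x.1 + f x.2, k x.2)
  map_add' x y := by
    ext
    · simp only [Prod.fst_add, Prod.snd_add, map_add]; ring
    · simp only [Prod.snd_add, map_add]
  map_smul' c x := by
    ext
    · simp only [Prod.smul_fst, Prod.smul_snd, map_smul, smul_eq_mul, RingHom.id_apply]; ring
    · simp only [Prod.smul_snd, map_smul, RingHom.id_apply]
  invFun x := (x.1 - f (k.symm x.2), k.symm x.2)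
  left_inv x := by
    ext
    · simp
    · simp
  right_inv x := by
    ext
    · simp
    · simp

@[simp] theorem blk_apply {n : ℕ} (f : HD n) (k : HGW n) (x : HV n) :
    blk f k x = (x.1 + f x.2, k x.2) := rfl

theorem blk_z0 {n : ℕ} (f : HD n) (k : HGW n) : blk f k (hz0 n) = hz0 n := by
  simp [hz0]

theorem blk_mul {n : ℕ} (f f' : HD n) (k k' : HGW n) :
    blk f k * blk f' k' = blk (f' + f ∘ₗ (k' : HW n →ₗ[ZMod 2] HW n)) (k * k') := by
  ext x
  · simp only [LinearEquiv.mul_apply, blk_apply, LinearMap.add_apply, LinearMap.coe_comp,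
      LinearEquiv.coe_coe, Function.comp_apply]
    ring
  · simp only [LinearEquiv.mul_apply, blk_apply]

theorem blk_zero_one {n : ℕ} : blk (0 : HD n) (1 : HGW n) = 1 := by
  ext x
  · simp
  · simp

theorem blk_inj {n : ℕ} {f f' : HD n} {k k' : HGW n} (h : blk f k = blk f' k') :
    f = f' ∧ k = k' := by
  constructor
  · ext w
    have := congrArg (fun g : HGL n => (g (0, Pi.single w 1)).1) h
    simpa using this
  · ext w i
    have := congrArg (fun g : HGL n => (g (0, w)).2 i) h
    simpa using this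

theorem exists_blk {n : ℕ} (g : HGL n) (hg : g (hz0 n) = hz0 n) : ∃ f k, g = blk f k := by
  let f : HD n := (LinearMap.fst (ZMod 2) (ZMod 2) (HW n)) ∘ₗ (g : HV n →ₗ[ZMod 2] HV n) ∘ₗ
    (LinearMap.inr (ZMod 2) (ZMod 2) (HW n))
  let k0 : HW n →ₗ[ZMod 2] HW n := (LinearMap.snd (ZMod 2) (ZMod 2) (HW n)) ∘ₗ
    (g : HV n →ₗ[ZMod 2] HV n) ∘ₗ (LinearMap.inr (ZMod 2) (ZMod 2) (HW n))
  have hf : ∀ w, f w = (g (0, w)).1 := fun w => rfl
  have hk0 : ∀ w, k0 w = (g (0, w)).2 := fun w => rfl
  have hsm : ∀ c : ZMod 2, g (c, 0) = (c, 0) := by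
    intro c
    have h1 : ((c, 0) : HV n) = c • hz0 n := by
      ext
      · simp [hz0]
      · simp [hz0]
    rw [h1, map_smul, hg]
  have hinj : Function.Injective k0 := by
    rw [injective_iff_map_eq_zero]
    intro w hw
    have h1 : g (0, w) = ((g (0, w)).1, 0) := by
      ext
      · rfl
      · rw [← hk0, hw]
    rw [← hsm] at h1
    have h2 := g.injective h1
    exact congrArg Prod.snd h2
  refine ⟨f, LinearEquiv.ofInjectiveEndo k0 hinj, ?_⟩
  ext x
  · have h1 : x = (x.1, 0) + (0, x.2) := by ext <;> simp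
    conv_lhs => rw [h1, map_add, hsm]
    simp [hf]
  · have h1 : x = (x.1, 0) + (0, x.2) := by ext <;> simp
    conv_lhs => rw [h1, map_add, hsm]
    simp [hk0]

theorem exists_linearEquiv_apply {K V : Type*} [Field K] [AddCommGroup V] [Module K V] {v w : V}
    (hv : v ≠ 0) (hw : w ≠ 0) : ∃ g : V ≃ₗ[K] V, g v = w := by
  let f : Submodule.span K {v} ≃ₗ[K] Submodule.span K {w} :=
    (LinearEquiv.toSpanNonzeroSingleton K V v hv).symm ≪≫ₗ
      (LinearEquiv.toSpanNonzeroSingleton K V w hw)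
  obtain ⟨g, hg⟩ := Submodule.exists_linearEquiv_restrict_eq f
  refine ⟨g, ?_⟩
  have h1 := hg ⟨v, Submodule.mem_span_singleton_self v⟩
  have h2 : (LinearEquiv.toSpanNonzeroSingleton K V v hv).symm
      ⟨v, Submodule.mem_span_singleton_self v⟩ = 1 := by
    rw [LinearEquiv.symm_apply_eq]
    ext
    simp
  have h3 : f ⟨v, Submodule.mem_span_singleton_self v⟩ = ⟨w, Submodule.mem_span_singleton_self w⟩ := by
    show (LinearEquiv.toSpanNonzeroSingleton K V w hw)
      ((LinearEquiv.toSpanNonzeroSingleton K V v hv).symm _) = _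
    rw [h2]
    ext
    simp
  rw [h3] at h1
  exact h1.symm

/-- a normal `2`-subgroup of `GL(W)` is trivial. -/
theorem normal_two_subgroup_eq_bot {n : ℕ} (N : Subgroup (HGW n)) [hN : N.Normal]
    (h2 : IsPGroup 2 N) : N = ⊥ := by
  rcases Nat.eq_zero_or_pos n with h0 | hpos
  · subst h0
    rw [Subgroup.eq_bot_iff_forall]
    intro g _
    ext x i
    exact i.elim0
  · have hcard : Nat.card (HW n) = 2 ^ n := by
      simp [Nat.card_eq_fintype_card]
    have h1 := h2.card_modEq_card_fixedPoints (HW n)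
    have h0 : (0 : HW n) ∈ MulAction.fixedPoints N (HW n) := by
      intro g
      show (g : HGW n) (0 : HW n) = 0
      exact map_zero _
    have h3 : 2 ∣ Nat.card (MulAction.fixedPoints N (HW n)) := by
      have : 2 ∣ Nat.card (HW n) := by
        rw [hcard]; exact dvd_pow_self 2 (by omega)
      exact (Nat.modEq_zero_iff_dvd.mp (h1.symm.trans (Nat.modEq_zero_iff_dvd.mpr this)))
    have h4 : 1 < Nat.card (MulAction.fixedPoints N (HW n)) := by
      have hpos' : 0 < Nat.card (MulAction.fixedPoints N (HW n)) :=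
        Nat.card_pos_iff.mpr ⟨⟨⟨0, h0⟩⟩, inferInstance⟩
      obtain ⟨c, hc⟩ := h3
      omega
    obtain ⟨a, b, hab⟩ := Finite.one_lt_card_iff_nontrivial.mp h4
    obtain ⟨w0, hw0, hw0ne⟩ : ∃ w0 : HW n, w0 ∈ MulAction.fixedPoints N (HW n) ∧ w0 ≠ 0 := by
      by_cases ha : (a : HW n) = 0
      · refine ⟨b, b.2, fun hb => hab (Subtype.ext (ha.trans hb.symm))⟩
      · exact ⟨a, a.2, ha⟩
    rw [Subgroup.eq_bot_iff_forall]
    intro t ht
    apply LinearEquiv.ext
    intro w
    by_cases hw : w = 0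
    · rw [hw]; simp
    · obtain ⟨k, hk⟩ := exists_linearEquiv_apply (K := ZMod 2) hw0ne hw
      have h5 : k⁻¹ * t * k ∈ N := by
        have := hN.conj_mem t ht k⁻¹
        simpa using this
      have h6 : (k⁻¹ * t * k) w0 = w0 := hw0 ⟨_, h5⟩
      have h7 : t (k w0) = k w0 := by
        have : k ((k⁻¹ * t * k) w0) = t (k w0) := by
          simp only [LinearEquiv.mul_apply]
          show k (k⁻¹ (t (k w0))) = _
          exact LinearEquiv.apply_symm_apply k _
        rw [← this, h6]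
      rw [hk] at h7
      simpa using h7

theorem card_HW (n : ℕ) : Nat.card (HW n) = 2 ^ n := by
  simp [Nat.card_eq_fintype_card]

theorem card_HV (n : ℕ) : Nat.card (HV n) = 2 ^ (n + 1) := by
  rw [Nat.card_prod, card_HW, Nat.card_zmod]; ring

theorem card_HD (n : ℕ) : Nat.card (HD n) = 2 ^ n := by
  rw [← card_HW n]
  exact (Nat.card_congr (Pi.basisFun (ZMod 2) (Fin n)).toDualEquiv.toEquiv).symm

theorem exists_dual_ne {n : ℕ} {w : HW n} (hw : w ≠ 0) : ∃ f : HD n, f w = 1 := by
  obtain ⟨i, hi⟩ : ∃ i, w i ≠ 0 := by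
    by_contra hcon
    push Not at hcon
    exact hw (funext hcon)
  refine ⟨LinearMap.proj i, ?_⟩
  rcases zmod2_cases (w i) with h | h
  · exact absurd h hi
  · simpa using h

end Cfsg.Agent.Lib.Helper90
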