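import Mathlib
import Cfsg.Agent.Lib.Helper90.Holo1
import Cfsg.Agent.Lib.Helper90.Extraspecial
import Cfsg.Agent.Lib.Helper90.ESConverse

/-!
# The affine datum `AffData` : a copy of `V ⋊ GL(V)` inside `G` containing `C_G(z)`
-/

set_option autoImplicit false

namespace Cfsg.Agent.Lib.Helper90

open Module

structure AffData (G : Type*) [Group G] (n : ℕ) where
  ι : HV n → G
  ρ : HGL n →* G
  ι_add : ∀ v w, ι (v + w) = ι v * ι w
  ι_inj : Function.Injective ι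
  ρ_inj : Function.Injective ρ
  conj : ∀ g v, ρ g * ι v * (ρ g)⁻¹ = ι (g v)
  disj : ∀ v g, ι v = ρ g → v = 0
  cent : ∀ x : G, x * ι (hz0 n) = ι (hz0 n) * x → ∃ v g, x = ι v * ρ g

namespace AffData

variable {G : Type*} [Group G] {n : ℕ} (D : AffData G n)

def z : G := D.ι (hz0 n)

theorem ι_zero : D.ι 0 = 1 := by
  have h := D.ι_add 0 0
  rw [add_zero] at h
  exact (mul_eq_left.mp h.symm)

theorem ι_sq (v : HV n) : D.ι v * D.ι v = 1 := by
  rw [← D.ι_add, hv_add_self, D.ι_zero]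

theorem ι_inv (v : HV n) : (D.ι v)⁻¹ = D.ι v := inv_eq_of_mul_eq_one_right (D.ι_sq v)

theorem ι_comm (v w : HV n) : D.ι v * D.ι w = D.ι w * D.ι v := by
  rw [← D.ι_add, ← D.ι_add, add_comm]

theorem ρι (g : HGL n) (v : HV n) : D.ρ g * D.ι v = D.ι (g v) * D.ρ g := by
  rw [← D.conj g v]; group

theorem mul_mul (v v' : HV n) (g g' : HGL n) :
    (D.ι v * D.ρ g) * (D.ι v' * D.ρ g') = D.ι (v + g v') * D.ρ (g * g') := by
  calc (D.ι v * D.ρ g) * (D.ι v' * D.ρ g') = D.ι v * (D.ρ g * D.ι v') * D.ρ g' := by group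
    _ = D.ι v * (D.ι (g v') * D.ρ g) * D.ρ g' := by rw [D.ρι]
    _ = D.ι (v + g v') * D.ρ (g * g') := by rw [D.ι_add, map_mul]; group

theorem decomp_unique {v v' : HV n} {g g' : HGL n} (h : D.ι v * D.ρ g = D.ι v' * D.ρ g') :
    v = v' ∧ g = g' := by
  have h1 : D.ι (v' + v) = D.ρ (g' * g⁻¹) := by
    rw [D.ι_add, map_mul, map_inv]
    calc D.ι v' * D.ι v = D.ι v' * (D.ι v * D.ρ g) * (D.ρ g)⁻¹ := by group
      _ = D.ι v' * (D.ι v' * D.ρ g') * (D.ρ g)⁻¹ := by rw [h]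
      _ = (D.ι v' * D.ι v') * D.ρ g' * (D.ρ g)⁻¹ := by group
      _ = D.ρ g' * (D.ρ g)⁻¹ := by rw [D.ι_sq, one_mul]
  have h2 := D.disj _ _ h1
  have h3 : v = v' := by
    have : v' + v + v = v' := by rw [add_assoc, hv_add_self, add_zero]
    rw [h2, zero_add] at this
    exact this
  refine ⟨h3, ?_⟩
  rw [h3] at h
  exact D.ρ_inj (mul_left_cancel h)

theorem z_ne : D.z ≠ 1 := by
  intro h
  rw [z, ← D.ι_zero] at h
  exact hz0_ne n (D.ι_inj h)

theorem z_sq : D.z * D.z = 1 := D.ι_sq _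

theorem comm_z_iff (v : HV n) (g : HGL n) :
    (D.ι v * D.ρ g) * D.z = D.z * (D.ι v * D.ρ g) ↔ g (hz0 n) = hz0 n := by
  have h1 : (D.ι v * D.ρ g) * D.z = D.ι (v + g (hz0 n)) * D.ρ g := by
    have := D.mul_mul v (hz0 n) g 1
    rw [map_one, mul_one, mul_one] at this
    exact this
  have h2 : D.z * (D.ι v * D.ρ g) = D.ι (hz0 n + v) * D.ρ g := by
    rw [D.ι_add, z]; group
  rw [h1, h2]
  constructor
  · intro h
    have h3 := (D.decomp_unique h).1
    rw [add_comm] at h3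
    exact add_right_cancel h3
  · intro h
    rw [h, add_comm]

/-- the elements of `C_G(z)`. -/
def el (v : HV n) (f : HD n) (k : HGW n) : G := D.ι v * D.ρ (blk f k)

theorem el_comm_z (v : HV n) (f : HD n) (k : HGW n) : D.el v f k * D.z = D.z * D.el v f k :=
  (D.comm_z_iff v _).mpr (blk_z0 f k)

theorem exists_el {x : G} (hx : x * D.z = D.z * x) : ∃ v f k, x = D.el v f k := by
  obtain ⟨v, g, rfl⟩ := D.cent x hx
  obtain ⟨f, k, rfl⟩ := exists_blk g ((D.comm_z_iff v g).mp hx)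
  exact ⟨v, f, k, rfl⟩

theorem el_mul (v v' : HV n) (f f' : HD n) (k k' : HGW n) :
    D.el v f k * D.el v' f' k' =
      D.el (v + blk f k v') (f' + f ∘ₗ (k' : HW n →ₗ[ZMod 2] HW n)) (k * k') := by
  unfold el
  rw [D.mul_mul, blk_mul]

theorem el_inj {v v' : HV n} {f f' : HD n} {k k' : HGW n} (h : D.el v f k = D.el v' f' k') :
    v = v' ∧ f = f' ∧ k = k' := by
  obtain ⟨h1, h2⟩ := D.decomp_unique h
  exact ⟨h1, blk_inj h2⟩

theorem el_one : D.el 0 0 1 = 1 := by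
  unfold el
  rw [D.ι_zero, blk_zero_one, map_one, one_mul]

theorem el_ι (v : HV n) : D.el v 0 1 = D.ι v := by
  unfold el
  rw [blk_zero_one, map_one, mul_one]

theorem z_eq_el : D.z = D.el (hz0 n) 0 1 := (D.el_ι _).symm

/-- `Q₀`. -/
def Q : Subgroup G where
  carrier := {x | ∃ v f, x = D.el v f 1}
  one_mem' := ⟨0, 0, D.el_one.symm⟩
  mul_mem' := by
    rintro _ _ ⟨v, f, rfl⟩ ⟨v', f', rfl⟩
    exact ⟨_, _, by rw [D.el_mul, mul_one]⟩
  inv_mem' := by
    rintro _ ⟨v, f, rfl⟩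
    refine ⟨blk f 1 v, f, ?_⟩
    apply inv_eq_of_mul_eq_one_right
    rw [D.el_mul, mul_one]
    have h1 : v + blk f 1 (blk f 1 v) = 0 := by
      ext
      · simp only [blk_apply, LinearEquiv.coe_one, id_eq, Prod.fst_add, Prod.fst_zero]
        have := zmod2_add_self (v.1); have h2 := zmod2_add_self (f v.2)
        calc v.1 + (v.1 + f v.2 + f v.2) = (v.1 + v.1) + (f v.2 + f v.2) := by ring
          _ = 0 := by rw [this, h2, add_zero]
      · simp only [blk_apply, LinearEquiv.coe_one, id_eq, Prod.snd_add, Prod.snd_zero]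
        exact congrFun (hw_add_self v.2) _
    have h2 : f + f ∘ₗ ((1 : HGW n) : HW n →ₗ[ZMod 2] HW n) = 0 := by
      have : f ∘ₗ ((1 : HGW n) : HW n →ₗ[ZMod 2] HW n) = f := by ext; simp
      rw [this, hd_add_self]
    rw [h1, h2, D.el_one]

theorem mem_Q {x : G} : x ∈ D.Q ↔ ∃ v f, x = D.el v f 1 := Iff.rfl

theorem comp_one (f : HD n) : f ∘ₗ ((1 : HGW n) : HW n →ₗ[ZMod 2] HW n) = f := by ext; simp

theorem q_mul (v v' : HV n) (f f' : HD n) :
    D.el v f 1 * D.el v' f' 1 = D.el (v + v' + (f v'.2) • hz0 n) (f' + f) 1 := by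
  rw [D.el_mul, mul_one, comp_one]
  congr 1
  ext
  · simp only [blk_apply, Prod.fst_add, hz0, Prod.smul_mk, smul_eq_mul, mul_one]; ring
  · simp [hz0]

theorem ι_mem_Q (v : HV n) : D.ι v ∈ D.Q := ⟨v, 0, (D.el_ι v).symm⟩

theorem z_mem_Q : D.z ∈ D.Q := D.ι_mem_Q _

theorem ι_smul_z0 (c : ZMod 2) : D.ι (c • hz0 n) = 1 ∨ D.ι (c • hz0 n) = D.z := by
  rcases zmod2_cases c with h | h
  · left; rw [h, zero_smul, D.ι_zero]
  · right; rw [h, one_smul]; rfl

theorem el_add_smul (v : HV n) (c : ZMod 2) (f : HD n) (k : HGW n) :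
    D.el (v + c • hz0 n) f k = D.ι (c • hz0 n) * D.el v f k := by
  unfold el
  rw [add_comm, D.ι_add, mul_assoc]

theorem q_sq (v : HV n) (f : HD n) : D.el v f 1 * D.el v f 1 = D.ι ((f v.2) • hz0 n) := by
  rw [D.q_mul, hv_add_self, hd_add_self, zero_add, D.el_ι]

theorem es (hn : 1 ≤ n) : ES D.Q D.z where
  two := by
    intro x
    obtain ⟨v, f, hx⟩ := x.2
    refine ⟨2, ?_⟩
    apply Subtype.ext
    have h1 : (x : G) * x = D.ι ((f v.2) • hz0 n) := by rw [hx, D.q_sq]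
    show ((x ^ (2 ^ 2) : D.Q) : G) = 1
    rw [Subgroup.coe_pow]
    calc (x : G) ^ (2 ^ 2) = ((x : G) * x) * ((x : G) * x) := by
          norm_num [pow_succ, mul_assoc]
      _ = 1 := by rw [h1, D.ι_sq]
  z_ne := D.z_ne
  z_mem := D.z_mem_Q
  z_sq := D.z_sq
  z_comm := by
    rintro _ ⟨v, f, rfl⟩
    exact D.el_comm_z v f 1
  center := by
    rintro _ ⟨v, f, rfl⟩ hc
    have hf : f = 0 := by
      ext i
      have h1 := hc (D.el (0, Pi.single i 1) 0 1) ⟨_, _, rfl⟩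
      rw [D.q_mul, D.q_mul] at h1
      have h2 := (D.el_inj h1).1
      have h3 := congrArg Prod.fst h2
      simp only [Prod.fst_add, LinearMap.zero_apply, zero_smul, add_zero, hz0,
        Prod.smul_mk, smul_eq_mul, mul_one, zero_add] at h3
      simpa using h3.symm
    have hv : v.2 = 0 := by
      by_contra hne
      obtain ⟨f', hf'⟩ := exists_dual_ne hne
      have h1 := hc (D.el 0 f' 1) ⟨_, _, rfl⟩
      rw [D.q_mul, D.q_mul] at h1
      have h2 := (D.el_inj h1).1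
      have h3 := congrArg Prod.fst h2
      rw [hf', hf] at h3
      simp [hz0] at h3
    rw [hf, D.el_ι]
    have : v = v.1 • hz0 n := by
      ext
      · simp [hz0]
      · rw [hv]; simp [hz0]
    rw [this]
    exact D.ι_smul_z0 _
  comm := by
    rintro _ ⟨v, f, rfl⟩ _ ⟨v', f', rfl⟩
    rw [D.q_mul, D.q_mul]
    have h1 : v + v' + (f v'.2) • hz0 n = (v' + v + (f' v.2) • hz0 n) + (f v'.2 + f' v.2) • hz0 n := by
      rw [add_smul]
      have := hv_add_self ((f' v.2) • hz0 n)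
      calc v + v' + (f v'.2) • hz0 n = v' + v + (f v'.2) • hz0 n + 0 := by rw [add_zero, add_comm v v']
        _ = v' + v + (f v'.2) • hz0 n + ((f' v.2) • hz0 n + (f' v.2) • hz0 n) := by rw [this]
        _ = _ := by abel
    rw [h1, D.el_add_smul, add_comm f' f]
    rcases D.ι_smul_z0 (f v'.2 + f' v.2) with h | h
    · left; rw [h, one_mul]
    · right; rw [h]
  sq := by
    rintro _ ⟨v, f, rfl⟩
    rw [D.q_sq]
    exact D.ι_smul_z0 _
  nonab := by
    refine ⟨D.el 0 (LinearMap.proj ⟨0, hn⟩) 1, ⟨_, _, rfl⟩, D.el (0, Pi.single ⟨0, hn⟩ 1) 0 1,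
      ⟨_, _, rfl⟩, ?_⟩
    rw [D.q_mul, D.q_mul]
    intro h
    have h2 := (D.el_inj h).1
    have h3 := congrArg Prod.fst h2
    simp [hz0] at h3

theorem card_Q : Nat.card D.Q = 2 ^ (2 * n + 1) := by
  have e : HV n × HD n ≃ D.Q := Equiv.ofBijective
    (fun p => ⟨D.el p.1 p.2 1, ⟨p.1, p.2, rfl⟩⟩) ⟨by
      intro p p' h
      have h1 := D.el_inj (congrArg Subtype.val h)
      exact Prod.ext h1.1 h1.2.1, by
      rintro ⟨_, v, f, rfl⟩
      exact ⟨(v, f), rfl⟩⟩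
  rw [← Nat.card_congr e, Nat.card_prod, card_HV, card_HD]
  ring

/-- the elementary abelian subgroup `U = ι V`. -/
def U : Subgroup G where
  carrier := Set.range D.ι
  one_mem' := ⟨0, D.ι_zero⟩
  mul_mem' := by
    rintro _ _ ⟨v, rfl⟩ ⟨w, rfl⟩
    exact ⟨v + w, D.ι_add v w⟩
  inv_mem' := by
    rintro _ ⟨v, rfl⟩
    exact ⟨v, (D.ι_inv v).symm⟩

theorem U_le_Q : D.U ≤ D.Q := by
  rintro _ ⟨v, rfl⟩
  exact D.ι_mem_Q v

theorem card_U : Nat.card D.U = 2 ^ (n + 1) := by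
  have e : HV n ≃ D.U := Equiv.ofBijective (fun v => ⟨D.ι v, ⟨v, rfl⟩⟩) ⟨by
      intro v w h
      exact D.ι_inj (congrArg Subtype.val h), by
      rintro ⟨_, v, rfl⟩
      exact ⟨v, rfl⟩⟩
  rw [← Nat.card_congr e, card_HV]

theorem U_elem : Cfsg.IsElementaryAbelian 2 D.U := by
  refine ⟨⟨⟨?_⟩⟩, ?_⟩
  · rintro ⟨_, v, rfl⟩ ⟨_, w, rfl⟩
    exact Subtype.ext (D.ι_comm v w)
  · rintro _ ⟨v, rfl⟩
    rw [pow_two, D.ι_sq]

end AffData

end Cfsg.Agent.Lib.Helper90
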