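import Mathlib
import Cfsg.Agent.Lib.Helper90.Holo2
import Cfsg.Agent.Lib.Helper90.Large
import Cfsg.Agent.Lib.Lead.Cores

/-!
# The main structure theorem for an affine datum
-/

set_option autoImplicit false

namespace Cfsg.Agent.Lib.Helper90

open Module

namespace AffData

variable {G : Type*} [Group G] {n : ℕ} (D : AffData G n)

theorem mem_cent {x : G} : x ∈ Subgroup.centralizer ({D.z} : Set G) ↔ x * D.z = D.z * x :=
  Subgroup.mem_centralizer_singleton_iff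

theorem comp_inv_comp (f : HD n) (k : HGW n) :
    (f ∘ₗ ((k⁻¹ : HGW n) : HW n →ₗ[ZMod 2] HW n)) ∘ₗ (k : HW n →ₗ[ZMod 2] HW n) = f := by
  ext x
  simp only [LinearMap.coe_comp, LinearEquiv.coe_coe, Function.comp_apply, LinearMap.coe_single]
  congr 1
  exact LinearEquiv.symm_apply_apply k _

theorem conj_mem_Q {c q : G} (hc : c * D.z = D.z * c) (hq : q ∈ D.Q) : c * q * c⁻¹ ∈ D.Q := by
  obtain ⟨v, f, k, rfl⟩ := D.exists_el hc
  obtain ⟨v', f', rfl⟩ := hq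
  obtain ⟨f'', hf''⟩ : ∃ f'' : HD n, f'' = f' ∘ₗ ((k⁻¹ : HGW n) : HW n →ₗ[ZMod 2] HW n) := ⟨_, rfl⟩
  have key : D.el v f k * D.el v' f' 1 =
      D.el (v + blk f k v' + blk f'' 1 v) f'' 1 * D.el v f k := by
    rw [D.el_mul, D.el_mul, mul_one, one_mul, comp_one, hf'', comp_inv_comp, add_assoc _ _ (blk _ 1 v),
      hv_add_self, add_zero, add_comm f' f]
  rw [key]
  exact ⟨(v + blk f k v' + blk f'' 1 v), f'', by group⟩

theorem Q_le_cent (hn : 1 ≤ n) : D.Q ≤ Subgroup.centralizer ({D.z} : Set G) := by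
  intro q hq
  exact D.mem_cent.mpr ((D.es hn).z_comm q hq)

def blkHom (n : ℕ) : HGW n →* HGL n where
  toFun k := blk 0 k
  map_one' := blk_zero_one
  map_mul' k k' := by
    rw [blk_mul]
    congr 1

def κ : HGW n →* G := D.ρ.comp (blkHom n)

theorem κ_eq (k : HGW n) : D.κ k = D.el 0 0 k := by
  unfold el
  rw [D.ι_zero, one_mul]; rfl

theorem κ_inj : Function.Injective D.κ := by
  intro k k' h
  rw [D.κ_eq, D.κ_eq] at h
  exact (D.el_inj h).2.2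

def K : Subgroup G := D.κ.range

theorem K_le_cent : D.K ≤ Subgroup.centralizer ({D.z} : Set G) := by
  rintro _ ⟨k, rfl⟩
  rw [D.κ_eq]
  exact D.mem_cent.mpr (D.el_comm_z _ _ _)

theorem Q_inf_K : D.Q ⊓ D.K = ⊥ := by
  rw [Subgroup.eq_bot_iff_forall]
  rintro x ⟨⟨v, f, hx⟩, ⟨k, hk⟩⟩
  rw [D.κ_eq] at hk
  have h1 := D.el_inj (hx.symm.trans hk.symm)
  rw [← hk, ← h1.2.2, D.el_one]

theorem el_split (v : HV n) (f : HD n) (k : HGW n) :
    D.el v f k = D.el v (f ∘ₗ ((k⁻¹ : HGW n) : HW n →ₗ[ZMod 2] HW n)) 1 * D.κ k := by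
  rw [D.κ_eq, D.el_mul, one_mul, comp_inv_comp, zero_add, map_zero, add_zero]

theorem Q_sup_K (hn : 1 ≤ n) : D.Q ⊔ D.K = Subgroup.centralizer ({D.z} : Set G) := by
  apply le_antisymm
  · exact sup_le (D.Q_le_cent hn) D.K_le_cent
  · intro x hx
    obtain ⟨v, f, k, rfl⟩ := D.exists_el (D.mem_cent.mp hx)
    rw [D.el_split]
    exact Subgroup.mul_mem_sup ⟨_, _, rfl⟩ ⟨k, rfl⟩

theorem K_equiv : Nonempty (D.K ≃* Matrix.GeneralLinearGroup (Fin n) (ZMod 2)) :=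
  ⟨((MonoidHom.ofInjective D.κ_inj).symm.trans
    (LinearMap.GeneralLinearGroup.generalLinearEquiv (ZMod 2) (HW n)).symm).trans
    (Matrix.GeneralLinearGroup.toLin (n := Fin n) (R := ZMod 2)).symm⟩

theorem pCore_eq (hn : 1 ≤ n) :
    (Cfsg.pCore 2 ↥(Subgroup.centralizer ({D.z} : Set G))).map
      (Subgroup.centralizer ({D.z} : Set G)).subtype = D.Q := by
  obtain ⟨C, hC⟩ : ∃ C : Subgroup G, C = Subgroup.centralizer ({D.z} : Set G) := ⟨_, rfl⟩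
  rw [← hC]
  have hmemC : ∀ {x : G}, x ∈ C ↔ x * D.z = D.z * x := by
    intro x; rw [hC]; exact D.mem_cent
  have hQC : D.Q ≤ C := hC ▸ D.Q_le_cent hn
  have hle : D.Q ≤ (Cfsg.pCore 2 ↥C).map C.subtype := by
    have hnorm : (D.Q.subgroupOf C).Normal := by
      constructor
      intro q hq c
      rw [Subgroup.mem_subgroupOf] at hq ⊢
      exact D.conj_mem_Q (hmemC.mp c.2) hq
    have h2 : IsPGroup 2 (D.Q.subgroupOf C) :=
      (D.es hn).two.comap_subtype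
    have h3 := Lead.le_pCore hnorm h2
    intro q hq
    exact ⟨⟨q, hQC hq⟩, h3 (Subgroup.mem_subgroupOf.mpr hq), rfl⟩
  apply le_antisymm _ hle
  obtain ⟨T, hT⟩ : ∃ T : Subgroup G, T = (Cfsg.pCore 2 ↥C).map C.subtype := ⟨_, rfl⟩
  rw [← hT] at hle ⊢
  have hT2 : IsPGroup 2 T := by
    rw [hT]; exact (Lead.pCore_isPGroup 2 ↥C).map _
  have hTn : ∀ c ∈ C, ∀ t ∈ T, c * t * c⁻¹ ∈ T := by
    intro c hc t ht
    rw [hT] at ht ⊢
    obtain ⟨t', ht', rfl⟩ := ht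
    exact ⟨⟨c, hc⟩ * t' * ⟨c, hc⟩⁻¹, (Lead.pCore_normal' 2 ↥C).conj_mem t' ht' ⟨c, hc⟩, rfl⟩
  have hTC : T ≤ C := by
    rw [hT]; rintro _ ⟨t, -, rfl⟩; exact t.2
  have hN : (T.comap D.κ) = ⊥ := by
    have : (T.comap D.κ).Normal := by
      constructor
      intro k hk k'
      rw [Subgroup.mem_comap] at hk ⊢
      rw [map_mul, map_mul, map_inv]
      exact hTn _ (hC ▸ D.K_le_cent ⟨k', rfl⟩) _ hk
    apply normal_two_subgroup_eq_bot
    exact hT2.comap_of_injective D.κ D.κ_inj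
  intro x hx
  obtain ⟨v, f, k, rfl⟩ := D.exists_el (hmemC.mp (hTC hx))
  rw [D.el_split] at hx ⊢
  have h1 : D.κ k ∈ T := by
    have h2 := T.mul_mem (T.inv_mem (hle (⟨v, _, rfl⟩ :
      D.el v (f ∘ₗ ((k⁻¹ : HGW n) : HW n →ₗ[ZMod 2] HW n)) 1 ∈ D.Q))) hx
    rwa [inv_mul_cancel_left] at h2
  have h3 : k ∈ T.comap D.κ := h1
  rw [hN, Subgroup.mem_bot] at h3
  rw [h3, map_one, mul_one]
  exact ⟨_, _, rfl⟩

theorem centralizer_Q (hn : 1 ≤ n) :
    Subgroup.centralizer (D.Q : Set G) = (Subgroup.center D.Q).map D.Q.subtype := by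
  ext x
  rw [(D.es hn).mem_center_map_iff']
  constructor
  · intro hx
    rw [Subgroup.mem_centralizer_iff] at hx
    obtain ⟨v, g, rfl⟩ := D.cent x (hx _ D.z_mem_Q).symm
    have hg : g = 1 := by
      apply LinearEquiv.ext
      intro v'
      have h1 := hx _ (D.ι_mem_Q v')
      have h2 : D.ι v' * (D.ι v * D.ρ g) = D.ι (v' + v) * D.ρ g := by rw [D.ι_add]; group
      have h3 : D.ι v * D.ρ g * D.ι v' = D.ι (v + g v') * D.ρ g := by
        have := D.mul_mul v v' g 1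
        rwa [map_one, mul_one, mul_one] at this
      rw [h2, h3] at h1
      have h4 := (D.decomp_unique h1).1
      rw [add_comm] at h4
      simpa using (add_left_cancel h4).symm
    rw [hg, map_one, mul_one] at hx ⊢
    have hv : v.2 = 0 := by
      by_contra hne
      obtain ⟨f', hf'⟩ := exists_dual_ne hne
      have h1 := hx (D.el 0 f' 1) ⟨_, _, rfl⟩
      rw [← D.el_ι, D.q_mul, D.q_mul] at h1
      have h2 := (D.el_inj h1).1
      have h3 := congrArg Prod.fst h2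
      rw [hf'] at h3
      simp [hz0] at h3
    have : v = v.1 • hz0 n := by
      ext
      · simp [hz0]
      · rw [hv]; simp [hz0]
    rw [this]
    exact D.ι_smul_z0 _
  · rintro (rfl | rfl)
    · exact Subgroup.one_mem _
    · rw [Subgroup.mem_centralizer_iff]
      intro q hq
      exact (D.es hn).z_comm q hq

theorem centralizer_center_le (hn : 1 ≤ n) :
    Subgroup.centralizer (((Subgroup.center D.Q).map D.Q.subtype : Subgroup G) : Set G) ≤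
      Subgroup.normalizer (D.Q : Set G) := by
  intro c hc
  rw [(D.es hn).mem_centralizer_center_iff] at hc
  rw [Subgroup.mem_normalizer_iff]
  intro q
  constructor
  · exact D.conj_mem_Q hc
  · intro h
    have hc' : c⁻¹ * D.z = D.z * c⁻¹ := by
      calc c⁻¹ * D.z = c⁻¹ * (D.z * c) * c⁻¹ := by group
        _ = c⁻¹ * (c * D.z) * c⁻¹ := by rw [hc]
        _ = D.z * c⁻¹ := by group
    have := D.conj_mem_Q hc' h
    have e : c⁻¹ * (c * q * c⁻¹) * c⁻¹⁻¹ = q := by group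
    rwa [e] at this

theorem large [Finite G] (hn : 1 ≤ n) : Cfsg.IsLargeExtraspecial D.Q := by
  refine ⟨(D.es hn).isExtraspecial, D.centralizer_Q hn, D.centralizer_center_le hn, ?_⟩
  obtain ⟨b0, hb0⟩ : ∃ b0 : HV n, b0 = (0, Pi.single ⟨0, hn⟩ 1) := ⟨_, rfl⟩
  have hb0ne : b0 ≠ 0 := by
    intro h
    have := congrFun (congrArg Prod.snd h) ⟨0, hn⟩
    rw [hb0] at this
    simp at this
  have hb0z : b0 ≠ hz0 n := by
    intro h
    have := congrArg Prod.fst h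
    rw [hb0] at this
    simp [hz0] at this
  obtain ⟨g0, hg0⟩ := exists_linearEquiv_apply (K := ZMod 2) (hz0_ne n) hb0ne
  intro K hK hQK
  refine large_of_involution D.Q D.z (D.es hn) (D.centralizer_Q hn) (D.centralizer_center_le hn)
    (D.ι b0) (D.ι_mem_Q b0) ?_ ?_ (D.ι_sq b0)
    (D.Q.map (MulAut.conj (D.ρ g0)).toMonoidHom) ((D.es hn).two.map _) ?_ ?_ K hK hQK
  · intro h
    rw [← D.ι_zero] at h
    exact hb0ne (D.ι_inj h)
  · intro h
    exact hb0z (D.ι_inj h)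
  · refine ⟨D.ι (g0⁻¹ (hz0 n)), D.ι_mem_Q _, ?_⟩
    show D.ρ g0 * D.ι (g0⁻¹ (hz0 n)) * (D.ρ g0)⁻¹ = D.z
    rw [D.conj]
    show D.ι (g0 (g0.symm (hz0 n))) = D.z
    rw [LinearEquiv.apply_symm_apply]; rfl
  · intro c hc r hr
    obtain ⟨q, hq, rfl⟩ := hr
    have hb : D.ι b0 = D.ρ g0 * D.z * (D.ρ g0)⁻¹ := by rw [z, D.conj, hg0]
    have hc' : ((D.ρ g0)⁻¹ * c * D.ρ g0) * D.z = D.z * ((D.ρ g0)⁻¹ * c * D.ρ g0) := by
      calc ((D.ρ g0)⁻¹ * c * D.ρ g0) * D.z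
          = (D.ρ g0)⁻¹ * (c * (D.ρ g0 * D.z * (D.ρ g0)⁻¹)) * D.ρ g0 := by group
        _ = (D.ρ g0)⁻¹ * ((D.ρ g0 * D.z * (D.ρ g0)⁻¹) * c) * D.ρ g0 := by rw [← hb, hc]
        _ = D.z * ((D.ρ g0)⁻¹ * c * D.ρ g0) := by group
    refine ⟨_, D.conj_mem_Q hc' hq, ?_⟩
    show D.ρ g0 * (((D.ρ g0)⁻¹ * c * D.ρ g0) * q * ((D.ρ g0)⁻¹ * c * D.ρ g0)⁻¹) * (D.ρ g0)⁻¹ =
      c * (D.ρ g0 * q * (D.ρ g0)⁻¹) * c⁻¹
    group

/-- The main structure theorem. -/
theorem main [Finite G] (hn : 1 ≤ n) (Q : Subgroup G)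
    (hQ : Q = (Cfsg.pCore 2 ↥(Subgroup.centralizer ({D.z} : Set G))).map
      (Subgroup.centralizer ({D.z} : Set G)).subtype) :
    Cfsg.IsExtraspecial 2 ↥Q ∧ Nat.card ↥Q = 2 ^ (2 * n + 1) ∧
    (∃ E : Subgroup G, E ≤ Q ∧ Cfsg.IsElementaryAbelian 2 E ∧ Nat.card ↥E = 2 ^ (n + 1)) ∧
    Cfsg.IsLargeExtraspecial Q ∧
    ∃ K : Subgroup G, K ≤ Subgroup.centralizer ({D.z} : Set G) ∧ Q ⊓ K = ⊥ ∧
      Q ⊔ K = Subgroup.centralizer ({D.z} : Set G) ∧
      Nonempty (↥K ≃* Matrix.GeneralLinearGroup (Fin n) (ZMod 2)) := by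
  rw [D.pCore_eq hn] at hQ
  subst hQ
  exact ⟨(D.es hn).isExtraspecial, D.card_Q, ⟨D.U, D.U_le_Q, D.U_elem, D.card_U⟩, D.large hn,
    D.K, D.K_le_cent, D.Q_inf_K, D.Q_sup_K hn, D.K_equiv⟩

end AffData

end Cfsg.Agent.Lib.Helper90
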