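import Mathlib
import Cfsg.Agent.Lib.Helper90.Holo3

/-!
# From a holomorph-like pair `(U, M)` to an affine datum
-/

set_option autoImplicit false

namespace Cfsg.Agent.Lib.Helper90

open Module

theorem finrank_HV (n : ℕ) : finrank (ZMod 2) (HV n) = n + 1 := by
  rw [Module.finrank_prod, Module.finrank_self, Module.finrank_fin_fun, add_comm]

theorem exists_coord_aux (A : Type*) [CommGroup A] (n : ℕ) (hexp : ∀ a : A, a * a = 1)
    (hcard : Nat.card A = 2 ^ (n + 1)) (z : A) (hz1 : z ≠ 1) :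
    ∃ ι : HV n → A, (∀ v w, ι (v + w) = ι v * ι w) ∧ Function.Bijective ι ∧ ι (hz0 n) = z := by
  have hfin : Finite A := Nat.finite_of_card_ne_zero (by rw [hcard]; positivity)
  have hfin' : Finite (Additive A) := inferInstanceAs (Finite A)
  have key : ∀ _ : Module (ZMod 2) (Additive A),
      ∃ ι : HV n → A, (∀ v w, ι (v + w) = ι v * ι w) ∧ Function.Bijective ι ∧ ι (hz0 n) = z := by
    intro inst
    have hrank : finrank (ZMod 2) (Additive A) = n + 1 := by
      have h1 := Module.natCard_eq_pow_finrank (K := ZMod 2) (V := Additive A)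
      have h2 : Nat.card (Additive A) = 2 ^ (n + 1) := hcard
      rw [h2, Nat.card_zmod] at h1
      exact (Nat.pow_right_injective (le_refl 2) h1).symm
    have e0 : HV n ≃ₗ[ZMod 2] Additive A :=
      LinearEquiv.ofFinrankEq _ _ ((finrank_HV n).trans hrank.symm)
    have hne : e0.symm (Additive.ofMul z) ≠ 0 := by
      intro h
      rw [LinearEquiv.symm_apply_eq, map_zero] at h
      exact hz1 h
    obtain ⟨g, hg⟩ := exists_linearEquiv_apply (K := ZMod 2) (hz0_ne n) hne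
    refine ⟨fun v => (e0 (g v)).toMul, ?_, ?_, ?_⟩
    · intro v w
      show (e0 (g (v + w))).toMul = (e0 (g v)).toMul * (e0 (g w)).toMul
      rw [map_add, map_add]; rfl
    · exact Additive.toMul.bijective.comp (e0.bijective.comp g.bijective)
    · show (e0 (g (hz0 n))).toMul = z
      rw [hg, LinearEquiv.apply_symm_apply]; rfl
  exact key (AddCommGroup.zmodModule (fun x => by
    change Additive.ofMul (x.toMul ^ 2) = 0
    rw [pow_two, hexp]; rfl))

theorem exists_coord {G : Type*} [Group G] (n : ℕ) (U : Subgroup G)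
    (hcomm : ∀ a ∈ U, ∀ b ∈ U, a * b = b * a) (hexp : ∀ a ∈ U, a * a = 1)
    (hcard : Nat.card U = 2 ^ (n + 1)) (z : G) (hz : z ∈ U) (hz1 : z ≠ 1) :
    ∃ ι : HV n → G, (∀ v w, ι (v + w) = ι v * ι w) ∧ Function.Injective ι ∧
      (∀ x, x ∈ U ↔ ∃ v, ι v = x) ∧ ι (hz0 n) = z := by
  let inst : CommGroup ↥U :=
    { (inferInstance : Group ↥U) with mul_comm := fun x y => Subtype.ext (hcomm x x.2 y y.2) }
  obtain ⟨ι, h1, h2, h3⟩ := exists_coord_aux ↥U n (fun a => Subtype.ext (hexp a a.2)) hcard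
    ⟨z, hz⟩ (fun h => hz1 (congrArg Subtype.val h))
  refine ⟨fun v => (ι v : G), ?_, ?_, ?_, ?_⟩
  · intro v w
    show ((ι (v + w) : ↥U) : G) = (ι v : G) * (ι w : G)
    rw [h1]; rfl
  · intro v w h
    exact h2.1 (Subtype.ext h)
  · intro x
    constructor
    · intro hx
      obtain ⟨v, hv⟩ := h2.2 ⟨x, hx⟩
      exact ⟨v, congrArg Subtype.val hv⟩
    · rintro ⟨v, rfl⟩
      exact (ι v).2
  · exact congrArg Subtype.val h3

theorem exists_affData {G : Type*} [Group G] (n : ℕ) (U M : Subgroup G)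
    (hcomm : ∀ a ∈ U, ∀ b ∈ U, a * b = b * a) (hexp : ∀ a ∈ U, a * a = 1)
    (hcard : Nat.card U = 2 ^ (n + 1))
    (hnorm : ∀ m ∈ M, ∀ u ∈ U, m * u * m⁻¹ ∈ U)
    (hUM : U ⊓ M = ⊥)
    (hfaith : ∀ m ∈ M, (∀ u ∈ U, m * u * m⁻¹ = u) → m = 1)
    (hfull : ∀ φ : ↥U ≃* ↥U, ∃ m ∈ M, ∀ u : ↥U, ((φ u : ↥U) : G) = m * u * m⁻¹)
    (z : G) (hz : z ∈ U) (hz1 : z ≠ 1)
    (hcent : ∀ x, x * z = z * x → ∃ u ∈ U, ∃ m ∈ M, x = u * m) :
    ∃ D : AffData G n, D.z = z := by
  obtain ⟨ι, hadd, hinj, hmem, hιz⟩ := exists_coord n U hcomm hexp hcard z hz hz1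
  have hιU : ∀ v, ι v ∈ U := fun v => (hmem _).mpr ⟨v, rfl⟩
  have hι0 : ι 0 = 1 := by
    have h := hadd 0 0
    rw [add_zero] at h
    exact (mul_eq_left.mp h.symm)
  -- uniqueness in `M`
  have huniq : ∀ m ∈ M, ∀ m' ∈ M, (∀ v, m * ι v * m⁻¹ = m' * ι v * m'⁻¹) → m = m' := by
    intro m hm m' hm' h
    have h1 : m'⁻¹ * m = 1 := by
      apply hfaith _ (M.mul_mem (M.inv_mem hm') hm)
      intro u hu
      obtain ⟨v, rfl⟩ := (hmem u).mp hu
      calc m'⁻¹ * m * ι v * (m'⁻¹ * m)⁻¹ = m'⁻¹ * (m * ι v * m⁻¹) * m' := by group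
        _ = m'⁻¹ * (m' * ι v * m'⁻¹) * m' := by rw [h]
        _ = ι v := by group
    exact (inv_mul_eq_one.mp h1).symm
  let eU : HV n ≃ ↥U := Equiv.ofBijective (fun v => ⟨ι v, hιU v⟩)
    ⟨fun v w h => hinj (congrArg Subtype.val h), fun u => by
      obtain ⟨v, hv⟩ := (hmem u).mp u.2
      exact ⟨v, Subtype.ext hv⟩⟩
  have heU : ∀ v, ((eU v : ↥U) : G) = ι v := fun v => rfl
  have heUadd : ∀ v w, eU (v + w) = eU v * eU w := fun v w => Subtype.ext (hadd v w)
  have heUsymm : ∀ a b : ↥U, eU.symm (a * b) = eU.symm a + eU.symm b := by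
    intro a b
    apply eU.injective
    rw [heUadd, Equiv.apply_symm_apply, Equiv.apply_symm_apply, Equiv.apply_symm_apply]
  have hex : ∀ g : HGL n, ∃ m ∈ M, ∀ v, m * ι v * m⁻¹ = ι (g v) := by
    intro g
    let φ : ↥U ≃* ↥U :=
      { toEquiv := (eU.symm.trans g.toEquiv).trans eU
        map_mul' := by
          intro a b
          show eU (g (eU.symm (a * b))) = eU (g (eU.symm a)) * eU (g (eU.symm b))
          rw [heUsymm, map_add, heUadd] }
    obtain ⟨m, hm, h⟩ := hfull φ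
    refine ⟨m, hm, fun v => ?_⟩
    have h1 := h (eU v)
    rw [heU] at h1
    rw [← h1]
    show ((eU (g (eU.symm (eU v))) : ↥U) : G) = ι (g v)
    rw [Equiv.symm_apply_apply, heU]
  choose r hrM hr using hex
  let ρ : HGL n →* G := MonoidHom.mk' r (by
    intro g g'
    apply huniq _ (hrM _) _ (M.mul_mem (hrM _) (hrM _))
    intro v
    rw [hr]
    calc ι ((g * g') v) = r g * (r g' * ι v * (r g')⁻¹) * (r g)⁻¹ := by rw [hr, hr]; rfl
      _ = r g * r g' * ι v * (r g * r g')⁻¹ := by group)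
  have hρ : ∀ g, ρ g = r g := fun g => rfl
  refine ⟨⟨ι, ρ, hadd, hinj, ?_, ?_, ?_, ?_⟩, hιz⟩
  · intro g g' h
    apply LinearEquiv.ext
    intro v
    apply hinj
    rw [← hr, ← hr, ← hρ, ← hρ, h]
  · intro g v
    rw [hρ, hr]
  · intro v g h
    have h1 : ι v ∈ U ⊓ M := ⟨hιU v, by rw [h, hρ]; exact hrM g⟩
    rw [hUM, Subgroup.mem_bot, ← hι0] at h1
    exact hinj h1
  · intro x hx
    rw [hιz] at hx
    obtain ⟨u, hu, m, hm, rfl⟩ := hcent x hx
    obtain ⟨v, rfl⟩ := (hmem u).mp hu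
    -- the linear map induced by `m`
    let c : HV n → HV n := fun w => eU.symm ⟨m * ι w * m⁻¹, hnorm m hm _ (hιU w)⟩
    have hc : ∀ w, ι (c w) = m * ι w * m⁻¹ := by
      intro w
      rw [← heU]
      show ((eU (eU.symm _) : ↥U) : G) = _
      rw [Equiv.apply_symm_apply]
    have hcadd : ∀ w w', c (w + w') = c w + c w' := by
      intro w w'
      apply hinj
      rw [hadd, hc, hc, hc, hadd]
      group
    let cA : HV n →+ HV n := AddMonoidHom.mk' c hcadd
    let cL : HV n →ₗ[ZMod 2] HV n := cA.toZModLinearMap 2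
    have hcL : ∀ w, cL w = c w := fun w => rfl
    have hcinj : Function.Injective cL := by
      intro w w' h
      rw [hcL, hcL] at h
      have h1 : m * ι w * m⁻¹ = m * ι w' * m⁻¹ := by rw [← hc, ← hc, h]
      exact hinj (mul_left_cancel (mul_right_cancel h1))
    refine ⟨v, LinearEquiv.ofInjectiveEndo cL hcinj, ?_⟩
    congr 1
    apply huniq _ hm _ (hrM _)
    intro w
    rw [hr, ← hc]
    rfl

end Cfsg.Agent.Lib.Helper90
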