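import Mathlib
import Cfsg.Agent.Lib.Helper90.Holo4

/-!
# The affine datum of `SL (n + 2) 2` at a transvection
-/

set_option autoImplicit false

namespace Cfsg.Agent.Lib.Helper90

open Module

namespace AffData

variable {G G' : Type*} [Group G] [Group G'] {n : ℕ}

/-- transport of an affine datum along an isomorphism. -/
def map (D : AffData G n) (e : G ≃* G') : AffData G' n where
  ι v := e (D.ι v)
  ρ := e.toMonoidHom.comp D.ρ
  ι_add v w := by rw [D.ι_add, map_mul]
  ι_inj := e.injective.comp D.ι_inj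
  ρ_inj := e.injective.comp D.ρ_inj
  conj g v := by
    show e (D.ρ g) * e (D.ι v) * (e (D.ρ g))⁻¹ = e (D.ι (g v))
    rw [← D.conj, map_mul, map_mul, map_inv]
  disj v g h := D.disj v g (e.injective h)
  cent x hx := by
    obtain ⟨v, g, h⟩ := D.cent (e.symm x) (by
      apply e.injective
      rw [map_mul, map_mul, e.apply_symm_apply]
      exact hx)
    refine ⟨v, g, ?_⟩
    show x = e (D.ι v) * e (D.ρ g)
    rw [← map_mul, ← h, e.apply_symm_apply]

theorem map_z (D : AffData G n) (e : G ≃* G') : (D.map e).z = e D.z := rfl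

end AffData

abbrev HX (n : ℕ) := HV n × ZMod 2

/-- the transvection `(x, c) ↦ (x + c • v, c)`. -/
def trv {n : ℕ} (v : HV n) : HX n ≃ₗ[ZMod 2] HX n where
  toFun x := (x.1 + x.2 • v, x.2)
  map_add' x y := by
    apply Prod.ext
    · simp only [Prod.fst_add, Prod.snd_add, add_smul]; abel
    · rfl
  map_smul' c x := by
    apply Prod.ext
    · simp only [Prod.smul_fst, Prod.smul_snd, RingHom.id_apply, smul_add, smul_smul, smul_eq_mul]
    · rfl
  invFun x := (x.1 + x.2 • v, x.2)
  left_inv x := by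
    apply Prod.ext
    · show x.1 + x.2 • v + x.2 • v = x.1
      rw [add_assoc, hv_add_self, add_zero]
    · rfl
  right_inv x := by
    apply Prod.ext
    · show x.1 + x.2 • v + x.2 • v = x.1
      rw [add_assoc, hv_add_self, add_zero]
    · rfl

theorem trv_apply {n : ℕ} (v : HV n) (x : HX n) : trv v x = (x.1 + x.2 • v, x.2) := rfl

/-- the Levi part `(x, c) ↦ (g x, c)`. -/
def lev (n : ℕ) : HGL n →* (HX n ≃ₗ[ZMod 2] HX n) where
  toFun g := LinearEquiv.prodCongr g (LinearEquiv.refl _ _)
  map_one' := by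
    apply LinearEquiv.ext; intro x; rfl
  map_mul' g g' := by
    apply LinearEquiv.ext; intro x; rfl

theorem lev_apply {n : ℕ} (g : HGL n) (x : HX n) : lev n g x = (g x.1, x.2) := rfl

theorem lev_inv_apply {n : ℕ} (g : HGL n) (x : HX n) : (lev n g)⁻¹ x = (g⁻¹ x.1, x.2) := by
  rw [← map_inv, lev_apply]

/-- the affine datum of `GL (HX n)`. -/
def affGL (n : ℕ) : AffData (HX n ≃ₗ[ZMod 2] HX n) n where
  ι := trv
  ρ := lev n
  ι_add v w := by
    apply LinearEquiv.ext; intro x
    rw [LinearEquiv.mul_apply, trv_apply, trv_apply, trv_apply]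
    apply Prod.ext
    · simp only [smul_add]; abel
    · rfl
  ι_inj v w h := by
    have := congrArg (fun L : HX n ≃ₗ[ZMod 2] HX n => (L (0, 1)).1) h
    simpa [trv_apply] using this
  ρ_inj g g' h := by
    apply LinearEquiv.ext; intro x
    have := congrArg (fun L : HX n ≃ₗ[ZMod 2] HX n => (L (x, 0)).1) h
    simpa [lev_apply] using this
  conj g v := by
    apply LinearEquiv.ext; intro x
    rw [LinearEquiv.mul_apply, LinearEquiv.mul_apply, lev_inv_apply, trv_apply, lev_apply, trv_apply]
    apply Prod.ext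
    · show g (g⁻¹ x.1 + x.2 • v) = x.1 + x.2 • g v
      rw [map_add, map_smul]
      congr 1
      exact LinearEquiv.apply_symm_apply g _
    · rfl
  disj v g h := by
    have := congrArg (fun L : HX n ≃ₗ[ZMod 2] HX n => (L (0, 1)).1) h
    simpa [trv_apply, lev_apply] using this
  cent x hx := by
    have h0 : ∀ y : HX n, y.2 • x (hz0 n, 0) = ((x y).2 • hz0 n, (0 : ZMod 2)) := by
      intro y
      have h1 := congrArg (fun L : HX n ≃ₗ[ZMod 2] HX n => L y) hx
      simp only [LinearEquiv.mul_apply, trv_apply] at h1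
      have h2 : ((y.1 + y.2 • hz0 n, y.2) : HX n) = y + y.2 • (hz0 n, 0) := by
        apply Prod.ext
        · simp
        · simp
      have h3 : (((x y).1 + (x y).2 • hz0 n, (x y).2) : HX n) = x y + ((x y).2 • hz0 n, 0) := by
        apply Prod.ext
        · simp
        · simp
      rw [h2, h3, map_add, map_smul] at h1
      exact add_left_cancel h1
    have h1 : (x (0, 1)).2 = 1 := by
      rcases zmod2_cases (x (0, 1)).2 with h | h
      · exfalso
        have h2 := h0 (0, 1)
        rw [h] at h2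
        simp only [one_smul, zero_smul] at h2
        have h3 : x (hz0 n, 0) = x 0 := by rw [h2, map_zero]; rfl
        have h4 := congrArg Prod.fst (x.injective h3)
        exact hz0_ne n h4
      · exact h
    have h2 : x (hz0 n, 0) = (hz0 n, 0) := by
      have := h0 (0, 1)
      rw [h1] at this
      simpa using this
    have h3 : ∀ y : HX n, (x y).2 = y.2 := by
      intro y
      have h4 := h0 y
      rw [h2] at h4
      have h5 := congrArg (fun t : HX n => t.1.1) h4
      simpa [hz0] using h5.symm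
    let g0 : HV n →ₗ[ZMod 2] HV n := (LinearMap.fst (ZMod 2) (HV n) (ZMod 2)) ∘ₗ
      (x : HX n →ₗ[ZMod 2] HX n) ∘ₗ (LinearMap.inl (ZMod 2) (HV n) (ZMod 2))
    have hg0 : ∀ w, g0 w = (x (w, 0)).1 := fun w => rfl
    have hg0' : ∀ w, x (w, 0) = (g0 w, 0) := by
      intro w
      apply Prod.ext
      · rfl
      · exact h3 _
    have hinj : Function.Injective g0 := by
      rw [injective_iff_map_eq_zero]
      intro w hw
      have h4 : x (w, 0) = x 0 := by rw [hg0', hw, map_zero]; rfl
      exact congrArg Prod.fst (x.injective h4)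
    refine ⟨(x (0, 1)).1, LinearEquiv.ofInjectiveEndo g0 hinj, ?_⟩
    apply LinearEquiv.ext; intro y
    rw [LinearEquiv.mul_apply, lev_apply, trv_apply]
    have h5 : y = (y.1, 0) + y.2 • ((0 : HV n), (1 : ZMod 2)) := by
      apply Prod.ext
      · simp
      · simp
    conv_lhs => rw [h5, map_add, map_smul, hg0']
    apply Prod.ext
    · rfl
    · show (0 : ZMod 2) + y.2 • (x (0, 1)).2 = y.2
      rw [h1]; simp

/-- conjugation by a linear equivalence. -/
def conjL {K X Y : Type*} [Field K] [AddCommGroup X] [AddCommGroup Y] [Module K X] [Module K Y]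
    (φ : X ≃ₗ[K] Y) : (X ≃ₗ[K] X) ≃* (Y ≃ₗ[K] Y) where
  toFun L := (φ.symm.trans L).trans φ
  invFun L := (φ.trans L).trans φ.symm
  left_inv L := by apply LinearEquiv.ext; intro x; simp
  right_inv L := by apply LinearEquiv.ext; intro x; simp
  map_mul' L L' := by apply LinearEquiv.ext; intro x; simp

theorem conjL_apply {K X Y : Type*} [Field K] [AddCommGroup X] [AddCommGroup Y] [Module K X]
    [Module K Y] (φ : X ≃ₗ[K] Y) (L : X ≃ₗ[K] X) (x : X) : conjL φ L (φ x) = φ (L x) := by
  show φ (L (φ.symm (φ x))) = φ (L x)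
  rw [LinearEquiv.symm_apply_apply]

theorem zmod2_unit (a : ZMod 2) (h : IsUnit a) : a = 1 := by
  revert a; decide

theorem sl_toLin'_bijective (m : ℕ) :
    Function.Bijective (Matrix.SpecialLinearGroup.toLin' (n := Fin m) (R := ZMod 2)) := by
  constructor
  · exact Matrix.SpecialLinearGroup.toLin'_injective
  · intro L
    have hdet : (LinearMap.toMatrix' (L : (Fin m → ZMod 2) →ₗ[ZMod 2] (Fin m → ZMod 2))).det = 1 := by
      apply zmod2_unit
      rw [LinearMap.det_toMatrix']
      exact LinearEquiv.isUnit_det' L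
    obtain ⟨A, hA⟩ : ∃ A : Matrix.SpecialLinearGroup (Fin m) (ZMod 2),
        (A : Matrix (Fin m) (Fin m) (ZMod 2)) =
          LinearMap.toMatrix' (L : (Fin m → ZMod 2) →ₗ[ZMod 2] (Fin m → ZMod 2)) :=
      ⟨⟨_, hdet⟩, rfl⟩
    refine ⟨A, ?_⟩
    apply LinearEquiv.ext; intro x
    rw [Matrix.SpecialLinearGroup.toLin'_apply, hA]
    simp

noncomputable def slLin (m : ℕ) :
    Matrix.SpecialLinearGroup (Fin m) (ZMod 2) ≃* ((Fin m → ZMod 2) ≃ₗ[ZMod 2] (Fin m → ZMod 2)) :=
  MulEquiv.ofBijective _ (sl_toLin'_bijective m)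

theorem slLin_apply (m : ℕ) (A : Matrix.SpecialLinearGroup (Fin m) (ZMod 2)) (v : Fin m → ZMod 2) :
    slLin m A v = (A : Matrix (Fin m) (Fin m) (ZMod 2)).mulVec v := by
  show Matrix.SpecialLinearGroup.toLin' A v = _
  rw [Matrix.SpecialLinearGroup.toLin'_apply, Matrix.toLin'_apply]

/-- the coordinates `((a, w), c) ↦ (a, c, w)`. -/
def hxEquiv (n : ℕ) : HX n ≃ₗ[ZMod 2] (Fin (n + 2) → ZMod 2) where
  toFun x := Fin.cons x.1.1 (Fin.cons x.2 x.1.2)
  map_add' x y := by
    funext i
    refine Fin.cases ?_ (fun i => ?_) i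
    · rfl
    · refine Fin.cases ?_ (fun i => ?_) i
      · rfl
      · rfl
  map_smul' c x := by
    funext i
    refine Fin.cases ?_ (fun i => ?_) i
    · rfl
    · refine Fin.cases ?_ (fun i => ?_) i
      · rfl
      · rfl
  invFun y := ((y 0, fun i => y i.succ.succ), y 1)
  left_inv x := rfl
  right_inv y := by
    funext i
    refine Fin.cases ?_ (fun i => ?_) i
    · rfl
    · refine Fin.cases ?_ (fun i => ?_) i
      · rfl
      · rfl

theorem hxEquiv_apply (n : ℕ) (x : HX n) :
    hxEquiv n x = Fin.cons x.1.1 (Fin.cons x.2 x.1.2) := rfl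

noncomputable def affSL (n : ℕ) : AffData (Matrix.SpecialLinearGroup (Fin (n + 2)) (ZMod 2)) n :=
  (affGL n).map ((conjL (hxEquiv n)).trans (slLin (n + 2)).symm)

theorem affSL_z (n : ℕ) (z : Matrix.SpecialLinearGroup (Fin (n + 2)) (ZMod 2))
    (hz : (z : Matrix (Fin (n + 2)) (Fin (n + 2)) (ZMod 2)) = Matrix.transvection 0 1 1) :
    (affSL n).z = z := by
  unfold affSL
  rw [AffData.map_z]
  show (slLin (n + 2)).symm (conjL (hxEquiv n) (affGL n).z) = z
  rw [MulEquiv.symm_apply_eq]
  apply LinearEquiv.ext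
  intro y
  obtain ⟨x, rfl⟩ := (hxEquiv n).surjective y
  rw [conjL_apply, slLin_apply, hz, Matrix.transvection, Matrix.add_mulVec, Matrix.one_mulVec,
    Matrix.single_mulVec]
  show hxEquiv n (trv (hz0 n) x) = _
  rw [trv_apply, hxEquiv_apply, hxEquiv_apply]
  funext i
  refine Fin.cases ?_ (fun i => ?_) i
  · simp [hz0]
  · refine Fin.cases ?_ (fun i => ?_) i
    · simp [hz0]
    · simp [hz0]

noncomputable def glSL (m : ℕ) :
    Matrix.GeneralLinearGroup (Fin m) (ZMod 2) ≃* Matrix.SpecialLinearGroup (Fin m) (ZMod 2) :=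
  ((Matrix.GeneralLinearGroup.toLin (n := Fin m) (R := ZMod 2)).trans
    (LinearMap.GeneralLinearGroup.generalLinearEquiv (ZMod 2) (Fin m → ZMod 2))).trans
    (slLin m).symm

end Cfsg.Agent.Lib.Helper90
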