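import Mathlib
import Cfsg.Agent.Lib.Helper90.Holo5

/-!
# Two affine data of the same rank have isomorphic involution centralizers
-/

set_option autoImplicit false

namespace Cfsg.Agent.Lib.Helper90

open Module

namespace AffData

variable {G G' : Type*} [Group G] [Group G'] {n : ℕ}

def toC (D : AffData G n) (s : HV n × HD n × HGW n) : ↥(Subgroup.centralizer ({D.z} : Set G)) :=
  ⟨D.el s.1 s.2.1 s.2.2, D.mem_cent.mpr (D.el_comm_z _ _ _)⟩

theorem toC_bijective (D : AffData G n) : Function.Bijective D.toC := by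
  constructor
  · rintro ⟨v, f, k⟩ ⟨v', f', k'⟩ h
    obtain ⟨h1, h2, h3⟩ := D.el_inj (congrArg Subtype.val h)
    exact Prod.ext h1 (Prod.ext h2 h3)
  · rintro ⟨x, hx⟩
    obtain ⟨v, f, k, rfl⟩ := D.exists_el (D.mem_cent.mp hx)
    exact ⟨(v, f, k), rfl⟩

def opC (s t : HV n × HD n × HGW n) : HV n × HD n × HGW n :=
  (s.1 + blk s.2.1 s.2.2 t.1, t.2.1 + s.2.1 ∘ₗ (t.2.2 : HW n →ₗ[ZMod 2] HW n), s.2.2 * t.2.2)

theorem toC_op (D : AffData G n) (s t : HV n × HD n × HGW n) :
    D.toC (opC s t) = D.toC s * D.toC t :=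
  Subtype.ext (D.el_mul _ _ _ _ _ _).symm

theorem cent_equiv (D : AffData G n) (D' : AffData G' n) :
    Nonempty (↥(Subgroup.centralizer ({D.z} : Set G)) ≃*
      ↥(Subgroup.centralizer ({D'.z} : Set G'))) := by
  let e := Equiv.ofBijective _ D.toC_bijective
  let e' := Equiv.ofBijective _ D'.toC_bijective
  have he : ∀ s, e s = D.toC s := fun s => rfl
  have he' : ∀ s, e' s = D'.toC s := fun s => rfl
  refine ⟨{ toEquiv := e.symm.trans e', map_mul' := ?_ }⟩
  intro x y
  obtain ⟨s, rfl⟩ := e.surjective x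
  obtain ⟨t, rfl⟩ := e.surjective y
  show e' (e.symm (e s * e t)) = e' (e.symm (e s)) * e' (e.symm (e t))
  rw [he s, he t, ← D.toC_op, ← he, Equiv.symm_apply_apply, ← he s, ← he t,
    Equiv.symm_apply_apply, Equiv.symm_apply_apply, he', he', he', D'.toC_op]

end AffData

end Cfsg.Agent.Lib.Helper90
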