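import Mathlib
import Cfsg.Agent.S1554
import Cfsg.Agent.Lib.Helper30.AutElemAb
import Cfsg.Agent.Lib.Helper90.Holo6

/-!
# The affine datum of `M24` at an involution fixing an octad pointwise
-/

set_option autoImplicit false

namespace Cfsg.Agent.Lib.Helper90

open Module Cfsg Cfsg.Agent.Lib.Helper27 Cfsg.Agent.Lib.Helper30
open scoped Pointwise

theorem perm_apply_inv {α : Type*} (f : Equiv.Perm α) (x : α) : f (f⁻¹ x) = x :=
  f.apply_symm_apply x

theorem full_of_card {G : Type*} [Group G] (n : ℕ) (U M : Subgroup G)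
    (hcomm : ∀ a ∈ U, ∀ b ∈ U, a * b = b * a) (hexp : ∀ a ∈ U, a * a = 1)
    (hcard : Nat.card U = 2 ^ (n + 1))
    (hnorm : ∀ m ∈ M, ∀ u ∈ U, m * u * m⁻¹ ∈ U)
    (hfaith : ∀ m ∈ M, (∀ u ∈ U, m * u * m⁻¹ = u) → m = 1)
    (hM : Nat.card M = Nat.card (GL (Fin (n + 1)) (ZMod 2))) :
    ∀ φ : ↥U ≃* ↥U, ∃ m ∈ M, ∀ u : ↥U, ((φ u : ↥U) : G) = m * u * m⁻¹ := by
  have hfinU : Finite ↥U := Nat.finite_of_card_ne_zero (by rw [hcard]; positivity)
  have : Fact (Nat.Prime 2) := ⟨Nat.prime_two⟩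
  obtain ⟨e⟩ := nonempty_mulAut_equiv_GL' ↥U 2 (n + 1)
    (fun x y => Subtype.ext (hcomm x x.2 y y.2))
    (fun x => Subtype.ext (by rw [pow_two]; exact hexp x x.2)) hcard
  have hinj : Function.Injective (conjHom U M hnorm) := by
    rw [injective_iff_map_eq_one]
    intro b hb
    have h1 := (mem_ker_conjHom U M hnorm b).mp hb
    apply Subtype.ext
    apply hfaith b b.2
    intro u hu
    rw [h1 u hu]; group
  have hfinA : Finite (MulAut ↥U) := Finite.of_equiv _ e.symm.toEquiv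
  have hbij : Function.Bijective (conjHom U M hnorm) := by
    apply hinj.bijective_of_nat_card_le
    rw [hM, Nat.card_congr e.toEquiv]
  intro φ
  obtain ⟨m, hm⟩ := hbij.2 φ
  refine ⟨m, m.2, fun u => ?_⟩
  rw [← hm, conjHom_apply]

theorem card_GL4 : Nat.card (GL (Fin (3 + 1)) (ZMod 2)) = 20160 := by
  rw [Matrix.card_GL_field, ZMod.card, Fin.prod_univ_four]
  norm_num

theorem eq_one_of_fix_compl {o : Finset GolayPt} (ho : o ∈ octads) {g : Equiv.Perm GolayPt}
    (hg : g ∈ M24) (h : ∀ x, x ∉ o → g x = x) : g = 1 := by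
  obtain ⟨t, ht, e0⟩ := octad_to_std ho
  have e : t • o = unmask 8536111 := e0
  have h1 : t * g * t⁻¹ = 1 := by
    apply checkRigid_sound [(4845570, 6053905), (13062145, 13938692), (13062145, 7221256),
      (13062145, 13062145), (4845570, 4845570), (13938692, 13938692), (7221256, 7221256),
      (11952160, 11952160)] 8241104 (by decide +kernel) _
      (M24.mul_mem (M24.mul_mem ht hg) (M24.inv_mem ht))
    intro p hp
    have hm : ∀ q : GolayPt, q ∈ unmask 8241104 → q ∉ unmask 8536111 := by decide +kernel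
    have h2 : t⁻¹ p ∉ o := by
      intro hc
      apply hm p hp
      rw [← e]
      have := Finset.smul_mem_smul_finset (a := t) hc
      rwa [Equiv.Perm.smul_def, perm_apply_inv] at this
    show t (g (t⁻¹ p)) = p
    rw [h _ h2, perm_apply_inv]
  calc g = t⁻¹ * (t * g * t⁻¹) * t := by group
    _ = 1 := by rw [h1]; group

theorem comm_of_sq {G : Type*} [Group G] {a b : G} (ha : a * a = 1) (hb : b * b = 1)
    (hab : a * b * (a * b) = 1) : a * b = b * a := by
  calc a * b = (b * b) * (a * b) * (a * a) := by rw [ha, hb]; group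
    _ = b * (b * a * (b * a)) * a := by group
    _ = b * (b * (a * b * (a * b)) * b⁻¹) * a := by group
    _ = b * a := by rw [hab]; group

theorem exists_mul_of_octStab {o : Finset GolayPt} (ho : o ∈ octads) {p : GolayPt} (hp : p ∉ o)
    {x : Equiv.Perm GolayPt} (hx : x ∈ octStab o) :
    ∃ a ∈ octFix o, ∃ b ∈ octStab o ⊓ MulAction.stabilizer (Equiv.Perm GolayPt) p, x = a * b := by
  have h1 := (Cfsg.Agent.S1554.result o ho p hp).2.1
  have hx' : x ∈ octFix o ⊔ (octStab o ⊓ MulAction.stabilizer (Equiv.Perm GolayPt) p) := by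
    rw [h1]; exact hx
  have hLE : octStab o ⊓ MulAction.stabilizer (Equiv.Perm GolayPt) p ≤
      Subgroup.normalizer (octFix o : Set (Equiv.Perm GolayPt)) := by
    have key : ∀ m ∈ octStab o, ∀ u ∈ octFix o, m * u * m⁻¹ ∈ octFix o := by
      intro m hm u hu
      rw [mem_octFix_iff] at hu ⊢
      refine ⟨M24.mul_mem (M24.mul_mem hm.1 hu.1) (M24.inv_mem hm.1), ?_⟩
      intro y hy
      have h2 : m⁻¹ y ∈ o := by
        rw [← mem_iff_of_smul_eq hm.2, perm_apply_inv]; exact hy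
      show m (u (m⁻¹ y)) = y
      rw [hu.2 _ h2, perm_apply_inv]
    intro m hm
    rw [Subgroup.mem_normalizer_iff]
    intro u
    constructor
    · exact key m hm.1 u
    · intro h
      have := key m⁻¹ ((octStab o).inv_mem hm.1) _ h
      have e : m⁻¹ * (m * u * m⁻¹) * m⁻¹⁻¹ = u := by group
      rwa [e] at this
  rw [← SetLike.mem_coe, Subgroup.coe_mul_of_right_le_normalizer_left _ _ hLE] at hx'
  obtain ⟨a, ha, b, hb, rfl⟩ := Set.mem_mul.mp hx'
  exact ⟨a, ha, b, hb, rfl⟩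

theorem exists_affData_M24 (z : ↥M24) (hz1 : z ≠ 1)
    (o : Finset GolayPt) (ho : o ∈ octads)
    (hfix : ∀ p : GolayPt, (z : Equiv.Perm GolayPt) p = p ↔ p ∈ o) :
    ∃ D : AffData ↥M24 3, D.z = z := by
  obtain ⟨p, hp⟩ : ∃ p : GolayPt, p ∉ o := by
    by_contra hcon
    push Not at hcon
    have h1 : o = Finset.univ := Finset.eq_univ_iff_forall.mpr hcon
    have h2 := ho.2
    rw [h1] at h2
    revert h2; decide
  obtain ⟨A, hA⟩ : ∃ A : Subgroup (Equiv.Perm GolayPt), A = octFix o := ⟨_, rfl⟩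
  obtain ⟨B, hB⟩ : ∃ B : Subgroup (Equiv.Perm GolayPt),
    B = octStab o ⊓ MulAction.stabilizer (Equiv.Perm GolayPt) p := ⟨_, rfl⟩
  have hAM : A ≤ M24 := by rw [hA]; exact inf_le_left
  have hBM : B ≤ M24 := by rw [hB]; exact inf_le_left.trans inf_le_left
  have hBS : B ≤ octStab o := by rw [hB]; exact inf_le_left
  have hAmem : ∀ {g : Equiv.Perm GolayPt}, g ∈ A ↔ g ∈ M24 ∧ ∀ x ∈ o, g x = x := by
    intro g; rw [hA]; exact mem_octFix_iff
  have hsq : ∀ a ∈ A, a * a = 1 := by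
    intro a ha
    rw [hA] at ha
    exact (Cfsg.Agent.S0381.result o ho).2 a ha
  have hnormP : ∀ m ∈ octStab o, ∀ u ∈ A, m * u * m⁻¹ ∈ A := by
    intro m hm u hu
    rw [hAmem] at hu ⊢
    refine ⟨M24.mul_mem (M24.mul_mem hm.1 hu.1) (M24.inv_mem hm.1), ?_⟩
    intro y hy
    have h2 : m⁻¹ y ∈ o := by
      rw [← mem_iff_of_smul_eq hm.2, perm_apply_inv]; exact hy
    show m (u (m⁻¹ y)) = y
    rw [hu.2 _ h2, perm_apply_inv]
  have hexp : ∀ a ∈ A.subgroupOf M24, a * a = 1 := by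
    intro a ha
    exact Subtype.ext (hsq _ (Subgroup.mem_subgroupOf.mp ha))
  have hcomm : ∀ a ∈ A.subgroupOf M24, ∀ b ∈ A.subgroupOf M24, a * b = b * a := by
    intro a ha b hb
    exact comm_of_sq (hexp a ha) (hexp b hb) (hexp _ (Subgroup.mul_mem _ ha hb))
  have hcard : Nat.card ↥(A.subgroupOf M24) = 2 ^ (3 + 1) := by
    rw [Nat.card_congr (Subgroup.subgroupOfEquivOfLe hAM).toEquiv, hA,
      (Cfsg.Agent.S0381.result o ho).1]
    norm_num
  have hnorm : ∀ m ∈ B.subgroupOf M24, ∀ u ∈ A.subgroupOf M24, m * u * m⁻¹ ∈ A.subgroupOf M24 := by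
    intro m hm u hu
    rw [Subgroup.mem_subgroupOf] at hm hu ⊢
    exact hnormP _ (hBS hm) _ hu
  have hUM : A.subgroupOf M24 ⊓ B.subgroupOf M24 = ⊥ := by
    rw [Subgroup.eq_bot_iff_forall]
    rintro x ⟨hxA, hxB⟩
    have h1 : (x : Equiv.Perm GolayPt) ∈ A ⊓ B :=
      ⟨Subgroup.mem_subgroupOf.mp hxA, Subgroup.mem_subgroupOf.mp hxB⟩
    rw [hA, hB, (Cfsg.Agent.S1554.result o ho p hp).1, Subgroup.mem_bot] at h1
    exact Subtype.ext h1
  have hfaith : ∀ m ∈ B.subgroupOf M24, (∀ u ∈ A.subgroupOf M24, m * u * m⁻¹ = u) → m = 1 := by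
    intro m hm hmu
    rw [Subgroup.mem_subgroupOf] at hm
    apply Subtype.ext
    apply eq_one_of_fix_compl ho m.2
    intro q hq
    obtain ⟨k, hk, hkq⟩ := Cfsg.Agent.S1554.octStab_trans ho hp hq
    obtain ⟨a, ha, b, hb, rfl⟩ := exists_mul_of_octStab ho hp hk
    have hbp : b p = p := hb.2
    have hmp : (m : Equiv.Perm GolayPt) p = p := by
      rw [hB] at hm; exact hm.2
    have haq : a p = q := by
      rw [← hkq]
      show a p = a (b p)
      rw [hbp]
    rw [← hA] at ha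
    have h1 := congrArg Subtype.val (hmu ⟨a, hAM ha⟩ (Subgroup.mem_subgroupOf.mpr ha))
    have h2 : (m : Equiv.Perm GolayPt) * a * (m : Equiv.Perm GolayPt)⁻¹ = a := h1
    have h3 : (m : Equiv.Perm GolayPt) * a = a * m := by
      calc (m : Equiv.Perm GolayPt) * a = (m : Equiv.Perm GolayPt) * a * (m : Equiv.Perm GolayPt)⁻¹ * m := by
            group
        _ = a * m := by rw [h2]
    rw [← haq]
    have h4 := congrArg (fun f : Equiv.Perm GolayPt => f p) h3
    simp only [Equiv.Perm.mul_apply] at h4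
    rw [h4, hmp]
  have hcardB : Nat.card ↥(B.subgroupOf M24) = Nat.card (GL (Fin (3 + 1)) (ZMod 2)) := by
    rw [Nat.card_congr (Subgroup.subgroupOfEquivOfLe hBM).toEquiv, hB,
      Cfsg.Agent.S1554.card_joint ho hp, card_GL4]
  apply exists_affData 3 (A.subgroupOf M24) (B.subgroupOf M24) hcomm hexp hcard hnorm hUM hfaith
    (full_of_card 3 _ _ hcomm hexp hcard hnorm hfaith hcardB) z _ hz1
  · intro x hx
    have hxo : (x : Equiv.Perm GolayPt) ∈ octStab o := by
      refine ⟨x.2, ?_⟩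
      apply smul_eq_of_mem_iff
      intro y
      rw [← hfix, ← hfix]
      have h1 := congrArg (fun f : ↥M24 => (f : Equiv.Perm GolayPt) y) hx
      have h2 : (x : Equiv.Perm GolayPt) ((z : Equiv.Perm GolayPt) y) =
        (z : Equiv.Perm GolayPt) ((x : Equiv.Perm GolayPt) y) := h1
      rw [← h2]
      exact (x : Equiv.Perm GolayPt).injective.eq_iff
    obtain ⟨a, ha, b, hb, hab⟩ := exists_mul_of_octStab ho hp hxo
    rw [← hA] at ha
    rw [← hB] at hb
    exact ⟨⟨a, hAM ha⟩, Subgroup.mem_subgroupOf.mpr ha, ⟨b, hBM hb⟩, Subgroup.mem_subgroupOf.mpr hb,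
      Subtype.ext hab⟩
  · rw [Subgroup.mem_subgroupOf, hAmem]
    exact ⟨z.2, fun x hx => (hfix x).mpr hx⟩

end Cfsg.Agent.Lib.Helper90
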