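import Mathlib
import Cfsg.Prelude.Def_MonsterType
import Cfsg.Agent.Lib.Helper90.Large

set_option autoImplicit false

namespace Cfsg.Agent.Lib.Helper90

variable {G : Type*} [Group G]

namespace ES

variable {Q : Subgroup G} {z : G}

/-- `Q = C_Q(s) ∪ q0 C_Q(s)`. -/
theorem coset_cases (h : ES Q z) {s q0 : G} (hs : s ∈ Q) (hq0 : q0 ∈ Q)
    (hq0s : q0 * s * q0⁻¹ = z * s) {q : G} (hq : q ∈ Q) :
    q * s = s * q ∨ (q0⁻¹ * q) * s = s * (q0⁻¹ * q) := by
  rcases h.comm q hq s hs with h1 | h1
  · left; exact h1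
  · right
    have h2 : q0⁻¹ * z = z * q0⁻¹ := h.z_comm _ (Q.inv_mem hq0)
    have h3 : q0⁻¹ * (z * s) = s * q0⁻¹ := by
      rw [← hq0s]; group
    calc q0⁻¹ * q * s = q0⁻¹ * (q * s) := by group
      _ = q0⁻¹ * (z * s) * q := by rw [h1]; group
      _ = s * (q0⁻¹ * q) := by rw [h3]; group

/-- an element commuting with `q0` and with `C_Q(s)` commutes with `Q`. -/
theorem commutes_all (h : ES Q z) {s q0 : G} (hs : s ∈ Q) (hq0 : q0 ∈ Q)
    (hq0s : q0 * s * q0⁻¹ = z * s) {a : G} (ha0 : a * q0 = q0 * a)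
    (ha : ∀ p ∈ Q, p * s = s * p → a * p = p * a) : ∀ q ∈ Q, a * q = q * a := by
  intro q hq
  rcases h.coset_cases hs hq0 hq0s hq with h1 | h1
  · exact ha q hq h1
  · have h2 := ha _ (Q.mul_mem (Q.inv_mem hq0) hq) h1
    calc a * q = a * q0 * (q0⁻¹ * q) := by group
      _ = q0 * (a * (q0⁻¹ * q)) := by rw [ha0]; group
      _ = q * a := by rw [h2]; group

/-- `C_Q(C_Q(s)) = {1, z, s, zs}`. -/
theorem double_centralizer (h : ES Q z) {s : G} (hs : s ∈ Q) (hs1 : s ≠ 1) (hsz : s ≠ z)
    (hss : s * s = 1) {y : G} (hy : y ∈ Q) (hyc : ∀ p ∈ Q, p * s = s * p → y * p = p * y) :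
    y = 1 ∨ y = z ∨ y = s ∨ y = z * s := by
  obtain ⟨q0, hq0, hq0s⟩ := h.exists_conj hs hs1 hsz
  rcases h.comm y hy q0 hq0 with h1 | h1
  · have h2 := h.commutes_all hs hq0 hq0s h1 hyc
    rcases h.center y hy (fun q hq => (h2 q hq).symm) with h3 | h3
    · exact Or.inl h3
    · exact Or.inr (Or.inl h3)
  · have hq0s' : q0 * s = z * s * q0 := by
      rw [← hq0s]; group
    have hzq0 : q0 * z = z * q0 := h.z_comm q0 hq0
    have hzy : y * z = z * y := h.z_comm y hy
    have hzs : s * z = z * s := h.z_comm s hs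
    have h2 : (y * s) * q0 = q0 * (y * s) := by
      have e1 : s * q0 = z * (q0 * s) := by
        rw [hq0s']
        calc s * q0 = (z * z) * s * q0 := by rw [h.z_sq]; group
          _ = z * (z * s * q0) := by group
      calc y * s * q0 = y * (s * q0) := by group
        _ = (y * z) * q0 * s := by rw [e1]; group
        _ = z * (y * q0) * s := by rw [hzy]; group
        _ = (z * z) * q0 * y * s := by rw [h1]; group
        _ = q0 * (y * s) := by rw [h.z_sq]; group
    have h3 : ∀ p ∈ Q, p * s = s * p → (y * s) * p = p * (y * s) := by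
      intro p hp hps
      calc y * s * p = y * (s * p) := by group
        _ = (y * p) * s := by rw [← hps]; group
        _ = p * (y * s) := by rw [hyc p hp hps]; group
    have h4 := h.commutes_all hs hq0 hq0s h2 h3
    rcases h.center (y * s) (Q.mul_mem hy hs) (fun q hq => (h4 q hq).symm) with h5 | h5
    · right; right; left
      calc y = (y * s) * s := by rw [mul_assoc, hss, mul_one]
        _ = s := by rw [h5, one_mul]
    · right; right; right
      calc y = (y * s) * s := by rw [mul_assoc, hss, mul_one]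
        _ = z * s := by rw [h5]

/-- `C_G(C_Q(s)) = {1, z, s, zs}` when `C_G(Q) = Z(Q)` and `C_G(Z(Q)) ≤ N_G(Q)`. -/
theorem centralizer_centralizer (h : ES Q z)
    (hL2 : Subgroup.centralizer (Q : Set G) = ((Subgroup.center ↥Q).map Q.subtype))
    (hL3 : Subgroup.centralizer (((Subgroup.center ↥Q).map Q.subtype) : Set G) ≤
      Subgroup.normalizer (Q : Set G))
    {s : G} (hs : s ∈ Q) (hs1 : s ≠ 1) (hsz : s ≠ z)
    (hss : s * s = 1) {a : G} (hac : ∀ p ∈ Q, p * s = s * p → a * p = p * a) :
    a = 1 ∨ a = z ∨ a = s ∨ a = z * s := by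
  obtain ⟨q0, hq0, hq0s⟩ := h.exists_conj hs hs1 hsz
  have hzs : z * s = s * z := (h.z_comm s hs).symm
  have haz : a * z = z * a := hac z h.z_mem hzs
  have haN : a ∈ Subgroup.normalizer (Q : Set G) := hL3 ((h.mem_centralizer_center_iff a).mpr haz)
  have hq1 : a * q0 * a⁻¹ ∈ Q := (Subgroup.mem_normalizer_iff.mp haN q0).mp hq0
  obtain ⟨y, hy_def⟩ : ∃ y, y = q0⁻¹ * (a * q0 * a⁻¹) := ⟨_, rfl⟩
  have hyQ : y ∈ Q := by rw [hy_def]; exact Q.mul_mem (Q.inv_mem hq0) hq1
  have hq1y : a * q0 * a⁻¹ = q0 * y := by rw [hy_def]; group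
  have centQ : ∀ c : G, (∀ q ∈ Q, c * q = q * c) → c = 1 ∨ c = z := by
    intro c hc
    have h1 : c ∈ Subgroup.centralizer (Q : Set G) := by
      rw [Subgroup.mem_centralizer_iff]
      intro q hq
      exact (hc q hq).symm
    rw [hL2] at h1
    exact (h.mem_center_map_iff' c).mp h1
  -- y commutes with C_Q(s)
  have hyc : ∀ p ∈ Q, p * s = s * p → y * p = p * y := by
    intro p hp hps
    have hap := hac p hp hps
    have hap' : a * p * a⁻¹ = p := by rw [hap]; group
    have hap'' : a * p⁻¹ * a⁻¹ = p⁻¹ := by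
      have := congrArg (·⁻¹) hap'
      simpa [mul_assoc] using this
    rcases h.conj_eq hp hq0 with h1 | h1
    · -- p q0 p⁻¹ = q0
      have h2 : p * (q0 * y) * p⁻¹ = q0 * y := by
        rw [← hq1y]
        calc p * (a * q0 * a⁻¹) * p⁻¹ = (a * p * a⁻¹) * (a * q0 * a⁻¹) * (a * p⁻¹ * a⁻¹) := by
              rw [hap', hap'']
          _ = a * (p * q0 * p⁻¹) * a⁻¹ := by group
          _ = a * q0 * a⁻¹ := by rw [h1]
      have h3 : p * y * p⁻¹ = y := by
        calc p * y * p⁻¹ = (p * q0 * p⁻¹)⁻¹ * (p * (q0 * y) * p⁻¹) := by group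
          _ = y := by rw [h1, h2]; group
      calc y * p = (p * y * p⁻¹) * p := by rw [h3]
        _ = p * y := by group
    · have haz' : a * z * a⁻¹ = z := by rw [haz]; group
      have h2 : p * (q0 * y) * p⁻¹ = z * (q0 * y) := by
        rw [← hq1y]
        calc p * (a * q0 * a⁻¹) * p⁻¹ = (a * p * a⁻¹) * (a * q0 * a⁻¹) * (a * p⁻¹ * a⁻¹) := by
              rw [hap', hap'']
          _ = a * (p * q0 * p⁻¹) * a⁻¹ := by group
          _ = (a * z * a⁻¹) * (a * q0 * a⁻¹) := by rw [h1]; group
          _ = z * (a * q0 * a⁻¹) := by rw [haz']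
      have h3 : p * y * p⁻¹ = y := by
        calc p * y * p⁻¹ = (p * q0 * p⁻¹)⁻¹ * (p * (q0 * y) * p⁻¹) := by group
          _ = y := by rw [h1, h2]; group
      calc y * p = (p * y * p⁻¹) * p := by rw [h3]
        _ = p * y := by group
  have hq0s' : q0 * s = z * s * q0 := by
    rw [← hq0s]; group
  have hzq0 : q0 * z = z * q0 := h.z_comm q0 hq0
  -- squares
  have hsq : (q0 * y) * (q0 * y) = q0 * q0 := by
    rw [← hq1y]
    have h1 : a * (q0 * q0) = (q0 * q0) * a := by
      rcases h.sq q0 hq0 with h2 | h2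
      · rw [h2]; simp
      · rw [h2]; exact haz
    calc a * q0 * a⁻¹ * (a * q0 * a⁻¹) = a * (q0 * q0) * a⁻¹ := by group
      _ = q0 * q0 := by rw [h1]; group
  have hbad : q0 * s * (q0 * s) ≠ q0 * q0 := by
    intro hcon
    apply h.z_ne
    have e : q0 * s * (q0 * s) = z * (q0 * q0) := by
      calc q0 * s * (q0 * s) = (q0 * s) * q0 * s := by group
        _ = z * s * q0 * q0 * s := by rw [hq0s']
        _ = z * s * (q0 * (q0 * s)) := by group
        _ = z * s * (q0 * z) * s * q0 := by rw [hq0s']; group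
        _ = z * (s * z) * (q0 * s) * q0 := by rw [hzq0]; group
        _ = z * (z * s) * (z * s * q0) * q0 := by rw [hq0s', ← hzs]
        _ = (z * z) * (s * z) * s * q0 * q0 := by group
        _ = (z * z) * z * (s * s) * q0 * q0 := by rw [← hzs]; group
        _ = z * (q0 * q0) := by rw [h.z_sq, hss]; group
    rw [e] at hcon
    calc z = z * (q0 * q0) * (q0 * q0)⁻¹ := by group
      _ = (q0 * q0) * (q0 * q0)⁻¹ := by rw [hcon]
      _ = 1 := by group
  rcases h.double_centralizer hs hs1 hsz hss hyQ hyc with hy | hy | hy | hy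
  · -- y = 1
    have h1 : a * q0 = q0 * a := by
      have : a * q0 * a⁻¹ = q0 := by rw [hq1y, hy, mul_one]
      calc a * q0 = (a * q0 * a⁻¹) * a := by group
        _ = q0 * a := by rw [this]
    rcases centQ a (h.commutes_all hs hq0 hq0s h1 hac) with h2 | h2
    · exact Or.inl h2
    · exact Or.inr (Or.inl h2)
  · -- y = z
    have h0 : a * q0 = q0 * z * a := by
      calc a * q0 = (a * q0 * a⁻¹) * a := by group
        _ = q0 * z * a := by rw [hq1y, hy]
    have has : a * s = s * a := hac s hs rfl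
    have e1 : s * q0 = z * (q0 * s) := by
      rw [hq0s']
      calc s * q0 = (z * z) * s * q0 := by rw [h.z_sq]; group
        _ = z * (z * s * q0) := by group
    have h1 : (a * s) * q0 = q0 * (a * s) := by
      calc a * s * q0 = a * (s * q0) := by group
        _ = (a * z) * q0 * s := by rw [e1]; group
        _ = z * (a * q0) * s := by rw [haz]; group
        _ = z * (q0 * z) * a * s := by rw [h0]; group
        _ = (z * z) * q0 * a * s := by rw [hzq0]; group
        _ = q0 * (a * s) := by rw [h.z_sq]; group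
    have h2 : ∀ p ∈ Q, p * s = s * p → (a * s) * p = p * (a * s) := by
      intro p hp hps
      calc a * s * p = a * (s * p) := by group
        _ = (a * p) * s := by rw [← hps]; group
        _ = p * (a * s) := by rw [hac p hp hps]; group
    rcases centQ _ (h.commutes_all hs hq0 hq0s h1 h2) with h3 | h3
    · right; right; left
      calc a = (a * s) * s := by rw [mul_assoc, hss, mul_one]
        _ = s := by rw [h3, one_mul]
    · right; right; right
      calc a = (a * s) * s := by rw [mul_assoc, hss, mul_one]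
        _ = z * s := by rw [h3]
  · exfalso
    rw [hy] at hsq
    exact hbad hsq
  · exfalso
    rw [hy] at hsq
    apply hbad
    rw [← hsq]
    symm
    calc q0 * (z * s) * (q0 * (z * s)) = (q0 * z) * s * ((q0 * z) * s) := by group
      _ = z * q0 * s * (z * q0 * s) := by rw [hzq0]
      _ = z * q0 * (s * z) * q0 * s := by group
      _ = z * (q0 * z) * s * q0 * s := by rw [← hzs]; group
      _ = (z * z) * (q0 * s * (q0 * s)) := by rw [hzq0]; group
      _ = q0 * s * (q0 * s) := by rw [h.z_sq]; group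

end ES

end Cfsg.Agent.Lib.Helper90
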